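import Cfsg.Agent.PLOC.JTr.Mod2
import Cfsg.Agent.TECH.BaerTrick
import Cfsg.Agent.TECH.CFNPC
import Cfsg.Agent.PLOC.ThompsonA
import Cfsg.Agent.PLOC.Tate

/-!
Glauberman's and Thompson's theorems on the normalizer of the Thompson subgroup (abelian version):
control of transfer for `p ≥ 7`, normal `p`-complements for `p ≥ 5`.
-/

set_option autoImplicit false

namespace CL.JTr

open Subgroup Cfsg CL.MSS CL.CF CL.ThA
open scoped commutatorElement

universe u

/-- The Baer addition on a normal subgroup of class two. -/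
structure Lie {G V : Type*} [Group G] [AddCommGroup V] [DistribMulAction G V] (T : Subgroup G)
    (k : ℕ) (e : V → G) (b : V →+ V →+ V) : Prop where
  inj : Function.Injective e
  mem : ∀ v, e v ∈ T
  surj : ∀ t ∈ T, ∃ v, e v = t
  smul : ∀ (g : G) v, e (g • v) = g * e v * g⁻¹
  br : ∀ x y, e (b x y) = ⁅e x, e y⁆
  add : ∀ x y, e (x + y) = ⁅e y, e x⁆ ^ k * (e x * e y)
  zero : e 0 = 1
  neg : ∀ x, e (-x) = (e x)⁻¹
  two : ∀ x : V, x + x = 0 → x = 0
  comm : ∀ x y z, Commute (e z) ⁅e x, e y⁆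

theorem exists_lie {G : Type u} [Group G] [Finite G] {T : Subgroup G} [T.Normal]
    (hT : ⁅T, T⁆ ≤ centralizer (T : Set G)) (hodd : Odd (Nat.card T)) :
    ∃ (V : Type u) (_ : AddCommGroup V) (_ : DistribMulAction G V) (k : ℕ) (e : V → G)
      (b : V →+ V →+ V), Lie T k e b := by
  obtain ⟨k, hk⟩ := hodd
  have hb : BaerHyp (k + 1) T :=
    ⟨fun x y z => Subtype.ext (hT (commutator_mem_commutator x.2 y.2) z z.2), fun x => by
      rw [← pow_add, show k + 1 + (k + 1) = Nat.card T + 1 by omega, pow_succ, pow_card_eq_one',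
        one_mul]⟩
  let _ : MulDistribMulAction G T := MulDistribMulAction.compHom T (MulAut.conjNormal (H := T))
  let act : DistribMulAction G (Additive (Baer hb)) :=
    { smul := fun g v => Additive.ofMul (g • v.toMul)
      one_smul := fun v => one_smul G v.toMul
      mul_smul := fun g h v => mul_smul g h v.toMul
      smul_zero := fun g => smul_one (N := Baer hb) g
      smul_add := fun g x y => smul_mul' g x.toMul y.toMul }
  have hc : ∀ x y z w : T, Baer.bmul (k + 1) ⁅x, y⁆ ⁅z, w⁆ = ⁅x, y⁆ * ⁅z, w⁆ := fun x y z w => by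
    rw [Baer.bmul, commutatorElement_eq_one_iff_commute.2 (hb.comm x y _), one_pow, one_mul]
  let br : Additive (Baer hb) → Additive (Baer hb) → Additive (Baer hb) :=
    fun x y => (⁅(show T from x), (show T from y)⁆ : T)
  let b : Additive (Baer hb) →+ Additive (Baer hb) →+ Additive (Baer hb) :=
    AddMonoidHom.mk' (fun x => AddMonoidHom.mk' (br x) fun y z =>
      (Baer.comm_bmul_right hb y z x).trans (hc _ _ _ _).symm) fun x y => AddMonoidHom.ext fun z =>
        (Baer.comm_bmul_left hb x y z).trans (hc _ _ _ _).symm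
  refine ⟨Additive (Baer hb), inferInstance, act, k + 1, fun v => ((show T from v) : G), b,
    fun x y h => Subtype.ext h, fun v => Subtype.prop _, fun t ht => ⟨(⟨t, ht⟩ : T), rfl⟩,
    fun g v => rfl, fun x y => rfl, fun x y => rfl, rfl, fun x => rfl, fun x hx => ?_,
    fun x y z => congrArg Subtype.val (hb.comm x y z)⟩
  have h1 : Baer.bmul (k + 1) (show T from x) (show T from x) = 1 := hx
  rw [Baer.bmul, commutatorElement_self, one_pow, one_mul] at h1
  have h2 := hb.pow (show T from x)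
  rw [← (Commute.refl _).mul_pow, h1, one_pow] at h2
  exact h2.symm

namespace Lie

variable {G V : Type*} [Group G] [AddCommGroup V] [DistribMulAction G V] {T : Subgroup G}
  {k : ℕ} {e : V → G} {b : V →+ V →+ V} (l : Lie T k e b)
include l

theorem eq_zero {x : V} : e x = 1 ↔ x = 0 := by rw [← l.zero, l.inj.eq_iff]

theorem br_eq_zero {x y : V} : b x y = 0 ↔ Commute (e x) (e y) := by
  rw [← l.eq_zero, l.br, commutatorElement_eq_one_iff_commute]

theorem add_of {x y : V} (h : b x y = 0) : e (x + y) = e x * e y := by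
  rw [l.add, commutatorElement_eq_one_iff_commute.2 (l.br_eq_zero.1 h).symm, one_pow, one_mul]

theorem nsmul (n : ℕ) (x : V) : e (n • x) = e x ^ n := by
  induction n with
  | zero => rw [zero_smul, l.zero, pow_zero]
  | succ n ih =>
    rw [succ_nsmul, l.add_of, ih, pow_succ]
    rw [map_nsmul, AddMonoidHom.nsmul_apply, l.br_eq_zero.2 (Commute.refl _), smul_zero]

theorem br_br (x y z : V) : b z (b x y) = 0 := l.br_eq_zero.2 (by rw [l.br]; exact l.comm x y z)

theorem mul (x y : V) : e x * e y = e (x + y + k • b x y) := by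
  rw [l.add_of (by rw [map_nsmul, l.br_br, smul_zero]), l.add, l.nsmul, l.br, mul_assoc,
    (((l.comm x y x).mul_left (l.comm x y y)).pow_right k).eq, ← mul_assoc,
    ← commutatorElement_inv (e x), inv_pow, inv_mul_cancel, one_mul]

theorem conj (x y : V) : e x • y = y + b x y := by
  apply l.inj
  rw [l.smul, l.add_of (l.br_br _ _ _), l.br, (l.comm x y y).eq, commutatorElement_def]
  group

/-- The additive subgroup of a subgroup. -/
def pre (N : Subgroup G) : AddSubgroup V where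
  carrier := {v | e v ∈ N}
  zero_mem' := by change e 0 ∈ N; rw [l.zero]; exact one_mem _
  add_mem' := fun {x y} hx hy => by
    change e (x + y) ∈ N
    rw [l.add, commutatorElement_def]
    exact mul_mem (pow_mem (mul_mem (mul_mem (mul_mem hy hx) (inv_mem hy)) (inv_mem hx)) k)
      (mul_mem hx hy)
  neg_mem' := fun {x} hx => by change e (-x) ∈ N; rw [l.neg]; exact inv_mem hx

/-- The subgroup of a Lie subring. -/
def sub (M : AddSubgroup V) (h : BrIn b M M M) : Subgroup G where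
  carrier := e '' M
  one_mem' := ⟨0, zero_mem _, l.zero⟩
  mul_mem' := by
    rintro _ _ ⟨x, hx, rfl⟩ ⟨y, hy, rfl⟩
    exact ⟨_, add_mem (add_mem hx hy) (nsmul_mem (h x hx y hy) k), (l.mul x y).symm⟩
  inv_mem' := by
    rintro _ ⟨x, hx, rfl⟩
    exact ⟨-x, neg_mem hx, l.neg x⟩

theorem card_sub (M : AddSubgroup V) (h : BrIn b M M M) : Nat.card (l.sub M h) = Nat.card M :=
  Nat.card_image_of_injective l.inj _

theorem card_pre (N : Subgroup G) : Nat.card (l.pre N) = Nat.card (N ⊓ T : Subgroup G) := by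
  refine Nat.card_congr (Equiv.ofBijective (fun v => ⟨e v.1, v.2, l.mem _⟩)
    ⟨fun x y h => Subtype.ext (l.inj (congrArg Subtype.val h)), fun t => ?_⟩)
  obtain ⟨v, hv⟩ := l.surj t t.2.2
  exact ⟨⟨v, by change e v ∈ N; rw [hv]; exact t.2.1⟩, Subtype.ext hv⟩

end Lie

section Main

variable {G V : Type*} [Group G] [AddCommGroup V] [DistribMulAction G V] {T : Subgroup G}
  {k : ℕ} {e : V → G} {b : V →+ V →+ V} (l : Lie T k e b) (A : Subgroup G) [IsMulCommutative A]

open scoped IsMulCommutative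

include l in
theorem e_L (a : A) (v : V) :
    e (L a v) = ⁅(e v)⁻¹, a * e v * (a : G)⁻¹⁆ ^ k * ⁅(a : G), e v⁆ := by
  rw [L_apply, sub_eq_add_neg, l.add, l.neg, Subgroup.smul_def, l.smul, commutatorElement_def a.1]

theorem mm_pre_le {N N' : Subgroup G} (h1 : ⁅A, N⁆ ≤ N') (h2 : ⁅N, N⁆ ≤ N')
    (h3 : A ≤ normalizer (N : Set G)) : mm A (l.pre N) ≤ l.pre N' :=
  mm_le_iff.2 fun a v hv => by
    change e _ ∈ N'
    rw [e_L l]
    exact mul_mem (pow_mem (h2 (commutator_mem_commutator (inv_mem hv)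
      ((mem_normalizer_iff.1 (h3 a.2) _).1 hv))) k) (h1 (commutator_mem_commutator a.2 hv))

theorem iterCommutator_le_sub {X : Subgroup G} (hX : X ≤ T) {W D : AddSubgroup V}
    (hW : mm A W ≤ W) (hXW : l.pre X ≤ W) (hDW : D ≤ W) (hD : mm A D ≤ D) (hb : BrIn b W W D)
    (n : ℕ) : ∀ g ∈ iterCommutator X A n, ∃ v ∈ (mm A)^[n] (l.pre X) ⊔ D, e v = g := by
  have hle : ∀ n, (mm A)^[n] (l.pre X) ⊔ D ≤ W := fun n =>
    sup_le ((iter_mono n hXW).trans (iter_anti hW (Nat.zero_le n))) hDW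
  have hcl : ∀ n, BrIn b ((mm A)^[n] (l.pre X) ⊔ D) ((mm A)^[n] (l.pre X) ⊔ D)
      ((mm A)^[n] (l.pre X) ⊔ D) := fun n x hx y hy =>
    AddSubgroup.mem_sup_right (hb x (hle n hx) y (hle n hy))
  induction n with
  | zero =>
    intro g hg
    obtain ⟨v, rfl⟩ := l.surj g (hX hg)
    exact ⟨v, AddSubgroup.mem_sup_left hg, rfl⟩
  | succ n ih =>
    change ⁅_, A⁆ ≤ l.sub _ (hcl (n + 1))
    refine commutator_le.2 fun g hg a ha => ?_
    obtain ⟨v, hv, rfl⟩ := ih g hg
    refine ⟨-L (⟨a, ha⟩ : A) v + k • b v (-((⟨a, ha⟩ : A) • v)), add_mem (neg_mem ?_)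
      (AddSubgroup.mem_sup_right (nsmul_mem (hb _ (hle n hv) _
        (neg_mem (smul_mem_of hW _ (hle n hv)))) k)), ?_⟩
    · rw [iter_succ]
      exact ((mm_sup _ _).trans (sup_le_sup le_rfl hD)) (L_mem_mm _ hv)
    · rw [L_apply, neg_sub, sub_eq_add_neg, ← l.mul, l.neg, Subgroup.smul_def, l.smul,
        commutatorElement_def]
      group

variable [Finite G] {S H : Subgroup G} [T.Normal] (hTS : T ≤ S) (hA : A ∈ maxAbIn S)
include hTS hA

theorem fix_eq : fix A V = l.pre A := by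
  ext v
  refine ⟨fun h => mem_of_mem_maxAbIn hA (hTS (l.mem v)) fun a ha => ?_, fun h a => ?_⟩
  · have := congrArg e (smul_of_fix h ⟨a, ha⟩)
    rwa [Subgroup.smul_def, l.smul, mul_inv_eq_iff_eq_mul] at this
  · refine L_eq_zero.2 (l.inj ?_)
    rw [Subgroup.smul_def, l.smul, mul_inv_eq_iff_eq_mul]
    exact setLike_mul_comm a.2 h

include l in
theorem exists_big (M : AddSubgroup V) (B : Subgroup A) (n : A → V)
    (h1 : ∀ x ∈ M, ∀ y ∈ M, b x y = 0) (h2 : ∀ a ∈ B, ∀ x ∈ M, a • (x + b (n a) x) = x)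
    (h3 : ∀ a ∈ B, ∀ a' ∈ B, L a'⁻¹ (n a) ∈ l.pre (T ⊓ centralizer (T : Set G)) ∧
      L a'⁻¹ (n a) + b (n a) (n a') = L a⁻¹ (n a')) :
    ∃ E : Subgroup G, E ≤ S ∧ IsMulCommutative E ∧ (∀ a ∈ B, a * e (n a) ∈ E) ∧
      Nat.card M ≤ Nat.card (E ⊓ T : Subgroup G) ∧
      Nat.card B * Nat.card M ≤ Nat.card E * Nat.card (fix A V) := by
  have hz : ∀ z ∈ l.pre (T ⊓ centralizer (T : Set G)), ∀ v, b v z = 0 := fun z hz v =>
    l.br_eq_zero.2 (hz.2 _ (l.mem v))
  have k1 : ∀ a ∈ B, ∀ x ∈ M, (a : G) * e (n a) * e x = e x * (a * e (n a)) := fun a ha x hx => by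
    have := congrArg e (h2 a ha x hx)
    rw [← l.conj, Subgroup.smul_def, l.smul, l.smul] at this
    conv_rhs => rw [← this]
    group
  have k2 : ∀ (a : A) (x : V), e x * a = a * e (a⁻¹ • x) := fun a x => by
    rw [Subgroup.smul_def, l.smul]; simp [mul_assoc]
  let E := closure ({g | ∃ a ∈ B, g = a * e (n a)} ∪ e '' M)
  have hM : BrIn b M M M := fun x hx y hy => by rw [h1 x hx y hy]; exact zero_mem _
  have c1 : Nat.card M ≤ Nat.card (E ⊓ T : Subgroup G) := by
    rw [← l.card_sub M hM]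
    refine card_le_of_le ?_
    rintro _ ⟨x, hx, rfl⟩
    exact ⟨subset_closure (Or.inr ⟨x, hx, rfl⟩), l.mem x⟩
  have hE : ∀ a ∈ B, a * e (n a) ∈ E := fun a ha => subset_closure (Or.inl ⟨a, ha, rfl⟩)
  refine ⟨E, (closure_le _).2 ?_, isMulCommutative_closure ?_, hE, c1, ?_⟩
  · rintro _ (⟨a, -, rfl⟩ | ⟨x, -, rfl⟩)
    · exact mul_mem (hA.1 a.2) (hTS (l.mem _))
    · exact hTS (l.mem _)
  · rintro _ (⟨a, ha, rfl⟩ | ⟨x, hx, rfl⟩) _ (⟨a', ha', rfl⟩ | ⟨y, hy, rfl⟩)
    · obtain ⟨m1, m2⟩ := h3 a ha a' ha'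
      obtain ⟨m3, -⟩ := h3 a' ha' a ha
      have m4 : e (a'⁻¹ • n a) * e (n a') = e (a⁻¹ • n a') * e (n a) := by
        rw [smul_eq a'⁻¹, smul_eq a⁻¹, l.add_of (hz _ m1 _), l.add_of (hz _ m3 _),
          m1.2 _ (l.mem (n a)), m3.2 _ (l.mem (n a')), ← m2, l.add_of (l.br_br _ _ _), l.br,
          commutatorElement_def]
        group
      calc (a : G) * e (n a) * (a' * e (n a')) = a * (e (n a) * a') * e (n a') := by group
        _ = (a * a' : A) * (e (a'⁻¹ • n a) * e (n a')) := by rw [k2]; simp [mul_assoc]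
        _ = (a' * a : A) * (e (a⁻¹ • n a') * e (n a)) := by rw [m4, mul_comm a]
        _ = a' * (e (n a') * a) * e (n a) := by rw [k2]; simp [mul_assoc]
        _ = _ := by group
    · exact k1 a ha y hy
    · exact (k1 a' ha' x hx).symm
    · exact l.br_eq_zero.1 (h1 x hx y hy)
  · have d1 := CL.card_map_mk'_mul E T
    have d2 := CL.card_map_mk'_mul (B.map A.subtype) T
    rw [card_map_of_injective A.subtype_injective] at d2
    have d3 : Nat.card ((B.map A.subtype).map (QuotientGroup.mk' T)) ≤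
        Nat.card (E.map (QuotientGroup.mk' T)) := by
      refine card_le_of_le ?_
      rintro _ ⟨_, ⟨a, ha, rfl⟩, rfl⟩
      refine ⟨_, hE a ha, ?_⟩
      rw [map_mul, QuotientGroup.mk'_apply T (e _), (QuotientGroup.eq_one_iff _).2 (l.mem _),
        mul_one]
      rfl
    have d4 : Nat.card (B.map A.subtype ⊓ T : Subgroup G) ≤ Nat.card (fix A V) := by
      rw [fix_eq l A hTS hA, l.card_pre]
      exact card_le_of_le (inf_le_inf_right _ (map_subtype_le B))
    rw [← d1, ← d2]
    calc _ ≤ Nat.card (E.map (QuotientGroup.mk' T)) * Nat.card (fix A V) *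
          Nat.card (E ⊓ T : Subgroup G) := Nat.mul_le_mul (Nat.mul_le_mul d3 d4) c1
      _ = _ := by ring

theorem setup {p : ℕ} [Fact p.Prime] (hS : IsPGroup p S)
    (hTH : ⁅T, H⁆ ≤ T ⊓ centralizer (T : Set G)) (hT : T ≤ H)
    (hmax : ∀ E ∈ maxAbIn S, Nat.card (A ⊓ T : Subgroup G) < Nat.card (E ⊓ T : Subgroup G) →
      E ≤ H) : Setup b (H.subgroupOf A) (l.pre (T ⊓ centralizer (T : Set G))) where
  alt x := l.br_eq_zero.2 (Commute.refl _)
  equiv a x y := l.inj (by
    simp only [Subgroup.smul_def, l.smul, l.br, commutatorElement_def]; group)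
  two := l.two
  nil := by
    have := hS.isNilpotent
    obtain ⟨n, hn⟩ := (S.isNilpotent_iff_lowerCentralSeries).1 this
    have key : ∀ n, (mm A)^[n] (⊤ : AddSubgroup V) ≤ l.pre (S.lowerCentralSeries n) := fun n => by
      induction n with
      | zero => exact fun v _ => hTS (l.mem v)
      | succ n ih =>
        rw [iter_succ]
        refine (mm_mono ih).trans (mm_pre_le l A ?_ ?_
          (hA.1.trans (S.self_le_normalizer_lowerCentralSeries n)))
        · rw [commutator_comm]; exact commutator_mono le_rfl hA.1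
        · exact commutator_mono le_rfl (S.lowerCentralSeries_antitone (Nat.zero_le n))
    refine ⟨n, fun v hv => ?_⟩
    have h : e v ∈ S.lowerCentralSeries n := key n hv
    rw [hn] at h
    exact l.eq_zero.1 h
  fixab c hc c' hc' := by
    rw [fix_eq l A hTS hA] at hc hc'
    exact l.br_eq_zero.2 (setLike_mul_comm (s := A) hc hc')
  zc z hz v := l.br_eq_zero.2 (hz.2 _ (l.mem v)).symm
  bz x y := by
    change e _ ∈ T ⊓ centralizer (T : Set G)
    rw [l.br]
    exact hTH (commutator_mem_commutator (l.mem x) (hT (l.mem y)))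
  zinv := mm_pre_le l A (commutator_le_right _ _) (commutator_le_right _ _) le_normalizer_of_normal
  a0z a ha v := by
    change e _ ∈ T ⊓ centralizer (T : Set G)
    rw [e_L l, ← commutatorElement_inv (e v)]
    exact mul_mem (pow_mem (hTH (commutator_mem_commutator (inv_mem (l.mem v))
      (hT (Normal.conj_mem inferInstance _ (l.mem v) _)))) k)
      (inv_mem (hTH (commutator_mem_commutator (l.mem v) ha)))
  ineq M B n h1 h2 h3 := by
    obtain ⟨E, k1, k2, -, -, k3⟩ := exists_big l A hTS hA M B n h1 h2 h3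
    exact k3.trans (Nat.mul_le_mul_right _ (hA.2.2 E k1 k2))
  max M B h0 h1 h2 h3 := by
    have : Finite V := Finite.of_injective _ l.inj
    obtain ⟨E, k1, k2, k3, k4, k5⟩ := exists_big l A hTS hA M B 0 h1
      (fun a ha x hx => by simpa using h2 a ha x hx) (fun a _ a' _ => by simp)
    have k6 := hmax E (mem_maxAbIn_of_card_le hA k1 k2
      (Nat.le_of_mul_le_mul_right (h3.trans k5) Nat.card_pos)) (by
        rw [← l.card_pre, ← fix_eq l A hTS hA]
        refine lt_of_lt_of_le (lt_of_le_of_ne (AddSubgroup.card_le_of_le h0.le) fun h => ?_) k4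
        exact h0.ne (AddSubgroup.eq_of_le_of_card_ge h0.le h.ge))
    intro a ha
    have := k6 (k3 a ha)
    rwa [Pi.zero_apply, l.zero, mul_one] at this

end Main

open scoped IsMulCommutative in
/-- A large abelian subgroup outside `H` acting with small degree on a critical subgroup. -/
theorem exists_deg {G : Type u} [Group G] [Finite G] {p : ℕ} [hp : Fact p.Prime] (hp2 : p ≠ 2)
    {S H T : Subgroup G} [T.Normal] (hS : IsPGroup p S) (hHS : H ≤ S) (hT : T ≤ H)
    (hTH : ⁅T, H⁆ ≤ T ⊓ centralizer (T : Set G)) (h : ¬ thompsonSubgroupAOf S ≤ H) :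
    ∃ A ≤ S, ¬ A ≤ H ∧ iterCommutator T A 4 ≤ T ⊓ centralizer (T : Set G) ∧
      ∀ X Y : Subgroup G, Y.Normal → X ≤ T ⊓ centralizer (T : Set G) → ⁅X, H⁆ ≤ Y →
        iterCommutator X A 3 ≤ Y := by
  obtain ⟨A, ⟨hA, hAH⟩, hmax⟩ := Set.exists_max_image {A | A ∈ maxAbIn S ∧ ¬ A ≤ H}
    (fun A => Nat.card (A ⊓ T : Subgroup G)) (Set.toFinite _) (by
      by_contra hc
      refine h (thompsonSubgroupAOf_le_iff.2 fun A hA => ?_)
      by_contra h1
      exact hc ⟨A, hA, h1⟩)
  have hTS := hT.trans hHS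
  obtain ⟨n, hn⟩ := (hS.to_le hTS).exists_card_eq
  obtain ⟨V, _, _, k, e, b, l⟩ := exists_lie
    ((commutator_mono le_rfl hT).trans (hTH.trans inf_le_right))
    (hn ▸ (hp.out.odd_of_ne_two hp2).pow)
  have := hA.2.1
  have : Finite V := Finite.of_injective _ l.inj
  have s := setup l A hTS hA hS hTH hT fun E hE hlt => by
    by_contra hc
    exact (hmax E ⟨hE, hc⟩).not_gt hlt
  refine ⟨A, hA.1, hAH, fun g hg => ?_, fun X Y _ hX hY g hg => ?_⟩
  · obtain ⟨v, hv, rfl⟩ := iterCommutator_le_sub l A le_rfl (W := ⊤) le_top le_top le_top s.zinv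
      (fun x _ y _ => s.bz x y) 4 g hg
    exact sup_le ((iter_mono 4 le_top).trans s.deg_four) le_rfl hv
  · obtain ⟨v, hv, rfl⟩ := iterCommutator_le_sub l A (hX.trans inf_le_left) (D := ⊥) s.zinv
      (fun v hv => hX hv) bot_le (mm_le_iff.2 fun a y hy => by rw [hy, map_zero]; exact zero_mem _)
      (fun x hx y _ => s.zc x hx y) 3 g hg
    refine sup_le (s.deg_three (Y := l.pre Y) (fun v hv => hX hv) (mm_pre_le l A
      (commutator_le_right _ _) (commutator_le_right _ _) le_normalizer_of_normal)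
      fun a ha x hx => ?_) bot_le hv
    change e _ ∈ Y
    rw [e_L l, ← commutatorElement_inv (e x), commutatorElement_eq_one_iff_commute.2
      (Commute.inv_left ((hX hx).2 _ (Normal.conj_mem inferInstance _ (l.mem x) _)).symm),
      one_pow, one_mul]
    exact inv_mem (hY (commutator_mem_commutator hx ha))

/-- The Thompson subgroup (abelian version) as a functor. -/
def jaF : ∀ (Q : Type u) [Group Q], Subgroup Q := fun Q _ => thompsonSubgroupA Q

variable {p : ℕ} [hp : Fact p.Prime]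

theorem isCharPFunctor_jaF : IsCharPFunctor.{u} p jaF := by
  refine ⟨fun Q _ _ h _ => ?_, fun Q R _ _ _ _ φ => ?_⟩
  · rw [jaF, ← thompsonSubgroupAOf_top]
    exact thompsonSubgroupAOf_ne_bot (h.to_subgroup _) top_ne_bot
  · rw [jaF, jaF, ← thompsonSubgroupAOf_top, ← thompsonSubgroupAOf_top,
      map_thompsonSubgroupAOf _ φ.injective, map_top_of_surjective _ φ.surjective]

variable {G : Type u} [Group G] [Finite G]

theorem exists_elem (hp2 : p ≠ 2) {S : Subgroup G} (hS : SylIn p S ⊤)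
    (h : ¬ (thompsonSubgroupAOf S).Normal) :
    ∃ g ∈ S, g ∉ pCore p G ∧ ChiefBd (pCore p G) (zpowers g) 6 ∧
      (Con p G → ∃ U V : Subgroup G, IsChiefFactor U V ∧ U ≤ pCore p G ∧
        iterCommutator U (zpowers g) 4 ≤ V ∧ ¬ ⁅U, zpowers g⁆ ≤ V) := by
  obtain ⟨T, h1, -, h2, h3, -, h4, h5⟩ := PG.exists_critical_ambient (isPGroup_pCore p G)
  have : T.Normal := normal_of_normalizer_eq_top (top_le_iff.1 (le_normalizer_of_normal.trans h2))
  obtain ⟨A, k1, k2, k3, k4⟩ := exists_deg hp2 hS.pgroup (pcore_le_sylIn hS) h1 h3 fun e => h (by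
    rw [← thompsonSubgroupAOf_eq_of_le e (pcore_le_sylIn hS)]
    exact thompsonSubgroupAOf_normal _)
  obtain ⟨g, g1, g2⟩ := SetLike.not_le_iff_exists.1 k2
  have g3 := zpowers_le.2 g1
  have l1 : ChiefBd (T ⊓ centralizer (T : Set G)) (zpowers g) 3 := fun U V m1 m2 =>
    (iterCommutator_mono le_rfl g3 3).trans (k4 U V m1.2.2.1 m2
      (chief_commutator_le m1 _ (isPGroup_pCore p G)))
  have l2 : ChiefBd T (zpowers g) 4 :=
    (l1.mono (by omega)).step ((iterCommutator_mono le_rfl g3 4).trans k3)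
  rw [commutator_comm] at h3
  refine ⟨g, k1 g1, g2, chiefBd_of_critical (isPGroup_pCore p G) h1 h3 (le_inf h4 inf_le_right)
    (i := 4) (by omega) l2 l1, fun hc => ?_⟩
  obtain ⟨U, V, m1, m2, m3⟩ := exists_chief_not_le T ((isPGroup_pCore p G).to_le h1)
    (fun x hx hx' => eq_one_of_coprime_of_mem (isPGroup_pCore p G) hx'
      (hc (h5 x (le_normalizer_of_normal (mem_top x)) hx' hx))) (L := zpowers g)
    fun e => g2 (e (mem_zpowers g))
  exact ⟨U, V, m1, m2.trans h1, l2 U V m1 m2, m3⟩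

/-- Glauberman: for `p ≥ 7` the normalizer of `J(S)` controls transfer. -/
theorem gTr_jaF (h7 : 7 ≤ p) : GTr p {jaF} G := by
  have h𝓦 : ∀ W ∈ ({jaF} : Set (∀ (Q : Type u) [Group Q], Subgroup Q)),
      IsCharPFunctor.{u} p W := by simpa using isCharPFunctor_jaF
  refine (sec_induction' (Φ := fun _ _ => True) (Ψ := fun H _ => GTr p {jaF} H)
    (fun _ _ _ => trivial) fun H _ _ _ ih => ?_).self
  by_contra hc
  obtain ⟨T, hT⟩ := exists_sylIn p (⊤ : Subgroup H)
  obtain ⟨-, -, -, -, h2⟩ := min_counter_tr h𝓦 (Set.singleton_nonempty _) ih hc hT rfl rfl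
  obtain ⟨g, k1, k2, k3, -⟩ := exists_elem (by omega) hT fun h =>
    hc ((gFus_of_normal h𝓦 rfl hT h).gTr h𝓦)
  exact h2 g k1 k2 (k3.mono (by omega))

/-- Thompson: for `p ≥ 5`, if `N(J(S))` has a normal `p`-complement, so has `G`. -/
theorem gNpc_jaF (h5 : 5 ≤ p) : GNpc p jaF G :=
  gNpc_of_local isCharPFunctor_jaF fun K R _ h1 h2 T h3 h4 => by
    by_contra hc
    obtain ⟨g, k1, -, -, k2⟩ := exists_elem (by omega) h3 hc
    obtain ⟨U, V, m1, m2, m3, m4⟩ := k2 h1
    have := m1.2.2.1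
    exact m4 (commutator_le_of_coatom h3 h4 h2 m1 ((isPGroup_pCore p _).to_le m2) k1
      (iterCommutator_le_of_le le_normalizer_of_normal m3 (by omega)))

end CL.JTr
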