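import Mathlib

/-!
Limits of subspaces under a one-parameter unipotent family, and the Lazard correspondence in
nilpotency degree four.
-/

set_option autoImplicit false

namespace CL.JLim

open Polynomial Module

variable {F R : Type*} [Field F] [Ring R] [Algebra F R]

/-- The leading coefficients of the polynomials `P f Q` with `f` having coefficients in `U`. -/
def lim (P Q : R[X]) (U : Submodule F R) : Submodule F R where
  carrier := {x | ∃ f : R[X], (∀ i, f.coeff i ∈ U) ∧ ∃ n, (P * f * Q).natDegree ≤ n ∧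
    (P * f * Q).coeff n = x}
  zero_mem' := ⟨0, by simp, 0, by simp, by simp⟩
  add_mem' := by
    rintro _ _ ⟨f, hf, n, h1, rfl⟩ ⟨g, hg, m, h2, rfl⟩
    have e : ∀ (f : R[X]) k, P * (X ^ k * f) * Q = X ^ k * (P * f * Q) := fun f k => by
      rw [← mul_assoc, ← X_pow_mul, mul_assoc _ P, mul_assoc _ _ Q]
    have d : ∀ (f : R[X]) k n, f.natDegree ≤ n → (X ^ k * f).natDegree ≤ n + k := fun f k n h =>
      natDegree_mul_le.trans (by have := natDegree_X_pow_le (R := R) k; omega)
    refine ⟨X ^ m * f + X ^ n * g, fun i => ?_, n + m, ?_, ?_⟩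
    · rw [coeff_add, coeff_X_pow_mul', coeff_X_pow_mul']
      split_ifs <;> simp [add_mem, hf, hg]
    · rw [mul_add, add_mul, e, e]
      exact natDegree_add_le_of_degree_le (d _ _ _ h1) (add_comm m n ▸ d _ _ _ h2)
    · rw [mul_add, add_mul, e, e, coeff_add, coeff_X_pow_mul, add_comm n m, coeff_X_pow_mul]
  smul_mem' := by
    rintro c _ ⟨f, hf, n, h1, rfl⟩
    refine ⟨c • f, fun i => U.smul_mem c (hf i), n, ?_, ?_⟩
    · rw [mul_smul_comm, smul_mul_assoc]; exact (natDegree_smul_le _ _).trans h1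
    · rw [mul_smul_comm, smul_mul_assoc, coeff_smul]

theorem lim_mono (P Q : R[X]) {U U' : Submodule F R} (h : U ≤ U') : lim P Q U ≤ lim P Q U' :=
  fun _ ⟨f, hf, k⟩ => ⟨f, fun i => h (hf i), k⟩

theorem lim_mul {P Q Q' : R[X]} (hQP : Q * P = 1) {U U' : Submodule F R}
    (h : ∀ x ∈ U, ∀ y ∈ U', x * y = 0) : ∀ x ∈ lim P Q U, ∀ y ∈ lim P Q' U', x * y = 0 := by
  rintro _ ⟨f, hf, n, h1, rfl⟩ _ ⟨g, hg, m, h2, rfl⟩
  have : f * g = 0 := by
    ext i
    rw [coeff_mul, coeff_zero]
    exact Finset.sum_eq_zero fun c _ => h _ (hf _) _ (hg _)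
  rw [← coeff_mul_add_eq_of_natDegree_le h1 h2, show P * f * Q * (P * g * Q') =
    P * (f * (Q * P) * g) * Q' by simp only [mul_assoc], hQP, mul_one, this]
  simp

theorem finrank_le_lim [FiniteDimensional F R] {P Q P' Q' : R[X]} (hP : P.natDegree ≤ 1)
    (hQ : Q.natDegree ≤ 1) (h1 : P' * P = 1) (h2 : Q * Q' = 1) (U : Submodule F R) :
    finrank F U ≤ finrank F (lim P Q U) := by
  let S : ℕ → Submodule F R[X] := fun n =>
    { carrier := {g | (∃ f : R[X], (∀ i, f.coeff i ∈ U) ∧ g = P * f * Q) ∧ ∀ i, n ≤ i → g.coeff i = 0}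
      zero_mem' := ⟨⟨0, by simp, by simp⟩, by simp⟩
      add_mem' := by
        rintro _ _ ⟨⟨f, hf, rfl⟩, k1⟩ ⟨⟨g, hg, rfl⟩, k2⟩
        exact ⟨⟨f + g, fun i => by rw [coeff_add]; exact add_mem (hf i) (hg i),
          by rw [mul_add, add_mul]⟩, fun i hi => by rw [coeff_add, k1 i hi, k2 i hi, add_zero]⟩
      smul_mem' := by
        rintro c _ ⟨⟨f, hf, rfl⟩, k1⟩
        exact ⟨⟨c • f, fun i => U.smul_mem c (hf i), by rw [mul_smul_comm, smul_mul_assoc]⟩,
          fun i hi => by rw [coeff_smul, k1 i hi, smul_zero]⟩ }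
  let co : ℕ → R[X] →ₗ[F] R := fun n => (lcoeff R n).restrictScalars F
  have fin : ∀ n, FiniteDimensional F (S n) := fun n =>
    FiniteDimensional.of_injective (LinearMap.pi fun i : Fin n => (co i).comp (S n).subtype)
      fun g g' h => Subtype.ext (Polynomial.ext fun i => by
        by_cases hi : i < n
        · exact congrFun h ⟨i, hi⟩
        · rw [g.2.2 i (by omega), g'.2.2 i (by omega)])
  have up : ∀ n, finrank F (S n) ≤ n * finrank F (lim P Q U) := fun n => by
    induction n with
    | zero =>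
      have : Subsingleton (S 0) := ⟨fun g g' => Subtype.ext (Polynomial.ext fun i => by
        rw [g.2.2 i (by omega), g'.2.2 i (by omega)])⟩
      rw [finrank_zero_of_subsingleton]; omega
    | succ n ih =>
      let φ : S (n + 1) →ₗ[F] lim P Q U := ((co n).comp (S (n + 1)).subtype).codRestrict _ (by
        rintro ⟨_, ⟨f, hf, rfl⟩, k⟩
        exact ⟨f, hf, n, natDegree_le_iff_coeff_eq_zero.2 fun i hi => k i hi, rfl⟩)
      let ψ : LinearMap.ker φ →ₗ[F] S n :=
        ((S (n + 1)).subtype.comp (LinearMap.ker φ).subtype).codRestrict _ fun g =>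
          ⟨g.1.2.1, fun i hi => by
            rcases hi.eq_or_lt with rfl | hi
            · exact congrArg Subtype.val g.2
            · exact g.1.2.2 i hi⟩
      have k1 := LinearMap.finrank_le_finrank_of_injective (f := ψ) fun g g' h =>
        Subtype.ext (Subtype.ext (congrArg (fun t : S n => t.1) h))
      have k2 := φ.finrank_range_add_finrank_ker
      have k3 := (LinearMap.range φ).finrank_le
      rw [add_mul]; omega
  have low : ∀ n, n * finrank F U ≤ finrank F (S (n + 2)) := fun n => by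
    let pl : (Fin n → U) →ₗ[F] R[X] := ∑ i : Fin n,
      ((monomial (i : ℕ)).restrictScalars F).comp (U.subtype.comp (LinearMap.proj i))
    have hpl : ∀ u j, (pl u).coeff j = if h : j < n then (u ⟨j, h⟩ : R) else 0 := fun u j => by
      simp only [pl, LinearMap.coe_sum, Finset.sum_apply, finset_sum_coeff, LinearMap.comp_apply,
        LinearMap.restrictScalars_apply, coeff_monomial]
      split_ifs with h
      · rw [Finset.sum_eq_single ⟨j, h⟩ (fun i _ hi => if_neg fun e => hi (Fin.ext e)) (by simp),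
          if_pos rfl]
        rfl
      · exact Finset.sum_eq_zero fun i _ => if_neg fun (e : (i : ℕ) = j) => h (e ▸ i.2)
    let ψ : (Fin n → U) →ₗ[F] S (n + 2) :=
      (((LinearMap.mulRight F Q).comp (LinearMap.mulLeft F P)).comp pl).codRestrict _ fun u =>
        ⟨⟨pl u, fun i => by rw [hpl]; split_ifs <;> simp, rfl⟩, fun i hi => by
          change (P * pl u * Q).coeff i = 0
          rcases Nat.eq_zero_or_pos n with rfl | hn
          · rw [Subsingleton.elim u 0, map_zero]; simp
          have : (pl u).natDegree ≤ n - 1 :=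
            natDegree_le_iff_coeff_eq_zero.2 fun i hi => by rw [hpl, dif_neg (by omega)]
          refine coeff_eq_zero_of_natDegree_lt (natDegree_mul_le.trans_lt ?_)
          have := natDegree_mul_le (p := P) (q := pl u)
          omega⟩
    have k := LinearMap.finrank_le_finrank_of_injective (f := ψ) fun u u' h => by
      have e : P * pl u * Q = P * pl u' * Q := congrArg Subtype.val h
      have e' : pl u = pl u' := by
        have := congrArg (fun g => P' * g * Q') e
        simpa only [← mul_assoc, h1, one_mul, mul_assoc _ Q, h2, mul_one] using this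
      funext i
      have := hpl u i
      rw [e', hpl, dif_pos i.2, dif_pos i.2] at this
      exact Subtype.ext this.symm
    rwa [finrank_pi_fintype, Finset.sum_const, Finset.card_univ, Fintype.card_fin,
      smul_eq_mul] at k
  by_contra hc
  have := (low (2 * finrank F (lim P Q U) + 1)).trans (up _)
  nlinarith

section Conj

variable {β : R}

theorem expand (f : R[X]) : (1 + X * C β) * f * (1 - X * C β) =
    f + X * (C β * f - f * C β) - X * (X * (C β * f * C β)) := by
  have h : ∀ g : R[X], g * X = X * g := fun g => X_mul.symm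
  have h' : ∀ g k : R[X], g * (X * k) = X * (g * k) := fun g k => by rw [← mul_assoc, h, mul_assoc]
  simp only [add_mul, mul_sub, one_mul, mul_one, mul_assoc]
  rw [h' f, h' (C β)]
  abel

theorem mul_conj (hβ : β * β = 0) : (1 - X * C β) * (1 + X * C β) = 1 := by
  have h := expand (β := -β) 1
  simpa [← C_mul, hβ, sub_eq_add_neg] using h

theorem mul_conj' (hβ : β * β = 0) : (1 + X * C β) * (1 - X * C β) = 1 := by
  simpa [← C_mul, hβ] using expand (β := β) 1

theorem natDegree_add_le_one : (1 + X * C β).natDegree ≤ 1 := by compute_degree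

theorem natDegree_sub_le_one : (1 - X * C β).natDegree ≤ 1 := by compute_degree

theorem coeff_X_mul_mem {L : Submodule F R} {g : R[X]} (h : ∀ i, g.coeff i ∈ L) (i : ℕ) :
    (X * g).coeff i ∈ L := by
  cases i with
  | zero => simp
  | succ i => rw [coeff_X_mul]; exact h i

theorem coeff_conj_mem {U L : Submodule F R}
    (h : ∀ x ∈ U, x ∈ L ∧ β * x - x * β ∈ L ∧ β * x * β ∈ L) {f : R[X]} (hf : ∀ i, f.coeff i ∈ U)
    (i : ℕ) : ((1 + X * C β) * f * (1 - X * C β)).coeff i ∈ L := by
  rw [expand, coeff_sub, coeff_add]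
  refine sub_mem (add_mem (h _ (hf i)).1 (coeff_X_mul_mem (fun j => ?_) i))
    (coeff_X_mul_mem (coeff_X_mul_mem fun j => ?_) i)
  · rw [coeff_sub, coeff_C_mul, coeff_mul_C]; exact (h _ (hf j)).2.1
  · rw [coeff_mul_C, coeff_C_mul]; exact (h _ (hf j)).2.2

theorem lim_le {U L : Submodule F R} (h : ∀ x ∈ U, x ∈ L ∧ β * x - x * β ∈ L ∧ β * x * β ∈ L) :
    lim (1 + X * C β) (1 - X * C β) U ≤ L := by
  rintro _ ⟨f, hf, n, -, rfl⟩
  exact coeff_conj_mem h hf n

theorem exists_const (hβ : β * β = 0) {U : Submodule F R} {x : R} (h0 : x ∈ U)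
    (h1 : β * x - x * β ∈ U) (h2 : β * x * β ∈ U) :
    ∃ f : R[X], (∀ i, f.coeff i ∈ U) ∧ (1 + X * C β) * f * (1 - X * C β) = C x := by
  refine ⟨(1 + X * C (-β)) * C x * (1 - X * C (-β)), coeff_conj_mem (U := F ∙ x) (fun y hy => ?_)
    (fun i => ?_), ?_⟩
  · obtain ⟨c, rfl⟩ := Submodule.mem_span_singleton.1 hy
    refine ⟨U.smul_mem c h0, ?_, ?_⟩
    · convert U.smul_mem (-c) h1 using 1
      simp only [neg_mul, mul_neg, mul_smul_comm, smul_mul_assoc]; module
    · convert U.smul_mem c h2 using 1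
      simp only [neg_mul, mul_neg, mul_smul_comm, smul_mul_assoc, smul_neg, neg_neg]
  · rw [coeff_C]; split_ifs <;> simp
  · rw [C_neg, mul_neg, sub_neg_eq_add, ← sub_eq_add_neg, ← mul_assoc, ← mul_assoc, mul_conj' hβ,
      one_mul, mul_assoc, mul_conj' hβ, mul_one]

theorem const_mem_lim (hβ : β * β = 0) {U : Submodule F R} {x : R} (h0 : x ∈ U)
    (h1 : β * x - x * β ∈ U) (h2 : β * x * β ∈ U) : x ∈ lim (1 + X * C β) (1 - X * C β) U := by
  obtain ⟨f, hf, e⟩ := exists_const hβ h0 h1 h2
  exact ⟨f, hf, 0, by rw [e, natDegree_C], by rw [e, coeff_C_zero]⟩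

theorem quad_mem_lim {U : Submodule F R} {x : R} (h0 : x ∈ U) :
    β * x * β ∈ lim (1 + X * C β) (1 - X * C β) U := by
  rw [← neg_mem_iff]
  refine ⟨C x, fun i => by rw [coeff_C]; split_ifs <;> simp [h0], 2, ?_, ?_⟩
  · rw [expand]; compute_degree
  · rw [expand, ← C_mul, ← C_mul, ← C_mul, ← C_sub]; simp [-map_sub, -map_mul, coeff_X_mul, coeff_C]

theorem lin_mem_lim (hβ : β * β = 0) {U : Submodule F R} {x : R} (h0 : x ∈ U)
    (h1 : β * x * β ∈ U) : β * x - x * β ∈ lim (1 + X * C β) (1 - X * C β) U := by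
  have z1 : β * (β * x * β) = 0 := by rw [← mul_assoc, ← mul_assoc, hβ]; simp
  have z2 : β * x * β * β = 0 := by rw [mul_assoc, hβ, mul_zero]
  have e : (1 + X * C β) * (C x + X * (X * C (β * x * β))) * (1 - X * C β) =
      C x + X * C (β * x - x * β) := by
    have h : ∀ g : R[X], g * X = X * g := fun g => X_mul.symm
    have k := expand (β := β) (C (β * x * β))
    rw [← C_mul, ← C_mul, ← C_mul, z1, z2] at k
    simp only [zero_mul, sub_self, C_0, mul_zero, add_zero, sub_zero] at k
    rw [mul_add, add_mul, expand, ← mul_assoc (1 + _), h, mul_assoc X (1 + _), ← mul_assoc (1 + _),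
      h, mul_assoc X (1 + _), mul_assoc X, mul_assoc X, k]
    simp only [C_sub, C_mul]
    abel
  refine ⟨C x + X * (X * C (β * x * β)), fun i => ?_, 1, ?_, ?_⟩
  · rw [coeff_add]
    refine add_mem ?_ (coeff_X_mul_mem (coeff_X_mul_mem fun j => ?_) i) <;>
      rw [coeff_C] <;> split_ifs <;> simp [h0, h1]
  · rw [e]; compute_degree
  · rw [e]; simp [-map_sub, -map_mul, coeff_C]

end Conj

section Lazard

/-- The truncated exponential (`a = 1/2`, `b = 1/3`). -/
def ex (a b : F) (x : R) : R := 1 + x + a • (x * x) + (a * b) • (x * (x * x))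

variable {a b : F} (ha : 2 * a = 1) (hb : 3 * b = 1) {W : Submodule F R}
  (h4 : ∀ x ∈ W, ∀ y ∈ W, ∀ z ∈ W, ∀ t ∈ W, x * (y * (z * t)) = 0)

theorem ex_of_sq {x : R} (h : x * x = 0) : ex a b x = 1 + x := by simp [ex, h]

include ha hb h4

theorem ex_smul_add {x : R} (hx : x ∈ W) (s t : F) :
    ex a b (s • x) * ex a b (t • x) = ex a b ((s + t) • x) := by
  simp only [hx, ex, mul_add, add_mul, mul_assoc, smul_mul_assoc, mul_smul_comm,
    smul_smul, one_mul, mul_one, h4, mul_zero, zero_add, smul_zero, add_zero]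
  match_scalars <;> grind

theorem ex_comm {x y : R} (hx : x ∈ W) (hy : y ∈ W) :
    ex a b x * ex a b y * ex a b (-x) * ex a b (-y) = 1 + ((x * y - y * x) +
      a • (x * (x * y - y * x) - (x * y - y * x) * x) +
      a • (y * (x * y - y * x) - (x * y - y * x) * y)) := by
  have e1 : ex a b x * ex a b y * ex a b (-x) = 1 + y + a • (y * y) + (a * b) • (y * (y * y)) +
      (x * y - y * x) + a • (x * (y * y) - y * (y * x)) +
      a • (x * (x * y) + y * (x * x)) - x * (y * x) := by
    simp only [hx, hy, ex, mul_add, add_mul, mul_assoc, smul_mul_assoc, mul_smul_comm,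
      smul_smul, one_mul, mul_one, h4, mul_zero, zero_add, smul_zero, add_zero, mul_neg, neg_mul, neg_neg,
      smul_neg, neg_zero, neg_add, smul_add]
    match_scalars <;> grind
  rw [e1]
  simp only [hx, hy, ex, mul_add, add_mul, mul_sub, sub_mul, mul_assoc,
    smul_mul_assoc, mul_smul_comm, smul_smul, one_mul, mul_one, h4, mul_zero, zero_add, smul_zero, add_zero,
    mul_neg, neg_mul, neg_neg, smul_neg, neg_zero, neg_add, smul_add, sub_zero, smul_sub]
  match_scalars <;> grind

theorem ex_comm2 {x y t : R} (hx : x ∈ W) (hy : y ∈ W) (ht : t ∈ W) :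
    let c := x * y - y * x
    let z := c + a • (x * c - c * x) + a • (y * c - c * y)
    z * z = 0 ∧ (t * c - c * t) * (t * c - c * t) = 0 ∧
      ex a b t * (1 + z) * ex a b (-t) * (1 - z) = 1 + (t * c - c * t) := by
  refine ⟨?_, ?_, ?_⟩ <;>
  simp only [hx, hy, ht, ex, mul_add, add_mul, mul_sub, sub_mul, mul_assoc,
    smul_mul_assoc, mul_smul_comm, smul_smul, one_mul, mul_one, h4, mul_zero, zero_add, smul_zero, add_zero,
    mul_neg, neg_mul, neg_neg, smul_neg, neg_zero, neg_add, smul_add, sub_zero, smul_sub]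
  match_scalars <;> grind

theorem ex_add {x y : R} (hx : x ∈ W) (hy : y ∈ W) :
    let c := x * y - y * x
    let z := c + a • (x * c - c * x) + a • (y * c - c * y)
    ex a b x * ex a b y * (1 + (-a) • z) * (1 + (5 * a * a * b) • (x * c - c * x)) *
      (1 + (7 * a * a * b) • (y * c - c * y)) = ex a b (x + y) := by
  simp only [hx, hy, ex, mul_add, add_mul, mul_sub, sub_mul, mul_assoc,
    smul_mul_assoc, mul_smul_comm, smul_smul, one_mul, mul_one, h4, mul_zero, zero_add, smul_zero, add_zero,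
    mul_neg, neg_mul, neg_neg, smul_neg, neg_zero, neg_add, smul_add, sub_zero, smul_sub]
  match_scalars <;> grind

end Lazard

end CL.JLim
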