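import Mathlib

/-!
Large abelian subgroups acting on a normal subgroup of class two, in the language of the Baer
(Lie ring) addition: bounds for the degree of the action.
-/

set_option autoImplicit false

namespace CL.JTr

open AddSubgroup

variable {A V : Type*} [CommGroup A] [AddCommGroup V] [DistribMulAction A V]

/-- The operator `a - 1`. -/
def L (a : A) : V →+ V := DistribSMul.toAddMonoidHom V a - AddMonoidHom.id V

theorem L_apply (a : A) (v : V) : L a v = a • v - v := rfl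

theorem smul_eq (a : A) (v : V) : a • v = v + L a v := by rw [L_apply]; abel

theorem L_eq_zero {a : A} {v : V} : L a v = 0 ↔ a • v = v := sub_eq_zero

theorem smul_L (a a' : A) (v : V) : a • L a' v = L a' (a • v) := by
  simp only [L_apply, smul_sub, smul_smul, mul_comm]

theorem L_comm (a a' : A) (v : V) : L a (L a' v) = L a' (L a v) := by
  simp only [L_apply, smul_sub, smul_smul, mul_comm]; abel

theorem L_mul (a a' : A) (v : V) : L (a * a') v = L a v + L a' v + L a (L a' v) := by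
  simp only [L_apply, smul_sub, smul_smul]; abel

theorem L_one (v : V) : L (1 : A) v = 0 := by simp [L_apply]

theorem L_inv (a : A) (v : V) : L a⁻¹ v = -(a⁻¹ • L a v) := by
  simp [L_apply, smul_sub]

theorem L_sub_L (a a' : A) (v : V) : L a v - L a' v = a' • L (a * a'⁻¹) v := by
  simp only [L_apply, smul_sub, smul_smul, mul_comm a, mul_inv_cancel_left]; abel

variable (A) in
/-- The product with the augmentation ideal. -/
def mm (M : AddSubgroup V) : AddSubgroup V := closure {x | ∃ a : A, ∃ y ∈ M, x = L a y}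

theorem L_mem_mm (a : A) {M : AddSubgroup V} {y : V} (hy : y ∈ M) : L a y ∈ mm A M :=
  subset_closure ⟨a, y, hy, rfl⟩

theorem mm_le_iff {M N : AddSubgroup V} : mm A M ≤ N ↔ ∀ a : A, ∀ y ∈ M, L a y ∈ N := by
  rw [mm, closure_le]
  exact ⟨fun h a y hy => h ⟨a, y, hy, rfl⟩, by rintro h _ ⟨a, y, hy, rfl⟩; exact h a y hy⟩

theorem mm_mono {M N : AddSubgroup V} (h : M ≤ N) : mm A M ≤ mm A N :=
  mm_le_iff.2 fun a _ hy => L_mem_mm a (h hy)

theorem mm_mm_le (M : AddSubgroup V) : mm A (mm A M) ≤ mm A M := by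
  refine mm_le_iff.2 fun a => ?_
  change mm A M ≤ (mm A M).comap (L a)
  refine mm_le_iff.2 fun a' y hy => ?_
  have : L a (L a' y) = L (a * a') y - L a y - L a' y := by rw [L_mul]; abel
  rw [mem_comap, this]
  exact sub_mem (sub_mem (L_mem_mm _ hy) (L_mem_mm _ hy)) (L_mem_mm _ hy)

theorem smul_mem_of {M : AddSubgroup V} (h : mm A M ≤ M) (a : A) {x : V} (hx : x ∈ M) :
    a • x ∈ M := by
  rw [smul_eq]; exact add_mem hx (h (L_mem_mm a hx))

theorem mm_sup (M N : AddSubgroup V) : mm A (M ⊔ N) ≤ mm A M ⊔ mm A N := by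
  refine mm_le_iff.2 fun a y hy => ?_
  obtain ⟨x, hx, z, hz, rfl⟩ := mem_sup.1 hy
  rw [map_add]
  exact add_mem (mem_sup_left (L_mem_mm a hx)) (mem_sup_right (L_mem_mm a hz))

variable (A V) in
/-- The fixed points. -/
def fix : AddSubgroup V where
  carrier := {v | ∀ a : A, L a v = 0}
  zero_mem' := fun a => map_zero _
  add_mem' := fun hx hy a => by rw [map_add, hx a, hy a, add_zero]
  neg_mem' := fun hx a => by rw [map_neg, hx a, neg_zero]

theorem mem_fix {v : V} : v ∈ fix A V ↔ ∀ a : A, L a v = 0 := Iff.rfl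

theorem fix_le_ker (a : A) : fix A V ≤ (L a).ker := fun _ hc => hc a

theorem smul_of_fix {v : V} (h : v ∈ fix A V) (a : A) : a • v = v := L_eq_zero.1 (h a)

theorem mm_fix : mm A (fix A V) ≤ ⊥ := mm_le_iff.2 fun a _ hy => hy a

theorem le_fix_iff {M : AddSubgroup V} : M ≤ fix A V ↔ mm A M ≤ ⊥ :=
  ⟨fun h => (mm_mono h).trans mm_fix, fun h _ hx a => h (L_mem_mm a hx)⟩

theorem smul_mem_fix_iff (a : A) {v : V} : a • v ∈ fix A V ↔ v ∈ fix A V := by
  refine ⟨fun h => ?_, fun h => by rwa [smul_of_fix h]⟩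
  have := smul_of_fix h a⁻¹
  rw [inv_smul_smul] at this
  rwa [this]

variable (A) in
/-- The augmentation ideal times one vector. -/
def m1 (w : V) : AddSubgroup V := mm A (zmultiples w)

theorem L_mem_m1 (a : A) (w : V) : L a w ∈ m1 A w := L_mem_mm a (mem_zmultiples w)

theorem m1_le_iff {w : V} {N : AddSubgroup V} : m1 A w ≤ N ↔ ∀ a : A, L a w ∈ N := by
  refine ⟨fun h a => h (L_mem_m1 a w), fun h => mm_le_iff.2 ?_⟩
  rintro a _ ⟨k, rfl⟩
  rw [map_zsmul]
  exact zsmul_mem (h a) k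

theorem m1_le_mm {w : V} {M : AddSubgroup V} (h : w ∈ M) : m1 A w ≤ mm A M :=
  mm_mono (zmultiples_le_of_mem h)

theorem mm_m1_le (w : V) : mm A (m1 A w) ≤ m1 A w := mm_mm_le _

theorem mm_le_of_m1 {M N : AddSubgroup V} (h : ∀ w ∈ M, m1 A w ≤ N) : mm A M ≤ N :=
  mm_le_iff.2 fun a y hy => h y hy (L_mem_m1 a y)

/-- The elements moving `w` into the invariant subgroup `D`. -/
def stab (w : V) (D : AddSubgroup V) (hD : mm A D ≤ D) : Subgroup A where
  carrier := {a | L a w ∈ D}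
  one_mem' := by change L (1 : A) w ∈ D; rw [L_one]; exact zero_mem _
  mul_mem' := fun {a a'} h h' => by
    change L (a * a') w ∈ D
    rw [L_mul]
    exact add_mem (add_mem h h') (hD (L_mem_mm a h'))
  inv_mem' := fun {a} h => by
    change L a⁻¹ w ∈ D
    rw [L_inv]
    exact neg_mem (smul_mem_of hD _ h)

theorem sub_mem_iff_stab (w : V) (D : AddSubgroup V) (hD : mm A D ≤ D) (a a' : A) :
    L a w - L a' w ∈ D ↔ a * a'⁻¹ ∈ stab w D hD := by
  rw [L_sub_L]
  refine ⟨fun h => ?_, smul_mem_of hD a'⟩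
  have := smul_mem_of hD a'⁻¹ h
  rwa [inv_smul_smul] at this

omit [DistribMulAction A V] in
theorem count [Finite A] [Finite V] {K K0 : Subgroup A} (hK : K0 ≤ K) {D M : AddSubgroup V}
    (hD : D ≤ M) (θ : A → V) (hθ : ∀ a ∈ K, θ a ∈ M)
    (h : ∀ a ∈ K, ∀ a' ∈ K, θ a - θ a' ∈ D ↔ a * a'⁻¹ ∈ K0) :
    Nat.card K * Nat.card D ≤ Nat.card K0 * Nat.card M ∧
      (Nat.card K0 * Nat.card M ≤ Nat.card K * Nat.card D → ∀ m ∈ M, ∃ a ∈ K, m - θ a ∈ D) := by
  let g : K → M ⧸ D.addSubgroupOf M := fun a => QuotientAddGroup.mk ⟨θ a, hθ a a.2⟩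
  have hg : ∀ a a' : K, g a = g a' ↔ (QuotientGroup.leftRel (K0.subgroupOf K)) a a' := by
    intro a a'
    rw [QuotientGroup.leftRel_apply, Subgroup.mem_subgroupOf, QuotientAddGroup.eq,
      mem_addSubgroupOf]
    change -θ a + θ a' ∈ D ↔ (a : A)⁻¹ * a' ∈ K0
    rw [neg_add_eq_sub, h _ a'.2 _ a.2, mul_comm]
  let f : K ⧸ K0.subgroupOf K → M ⧸ D.addSubgroupOf M :=
    Quotient.lift g fun a a' e => (hg a a').2 e
  have hf : Function.Injective f := by
    rintro ⟨a⟩ ⟨a'⟩ e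
    exact Quotient.sound ((hg a a').1 e)
  have e1 := Subgroup.card_eq_card_quotient_mul_card_subgroup (K0.subgroupOf K)
  have e2 := AddSubgroup.card_eq_card_quotient_mul_card_addSubgroup (D.addSubgroupOf M)
  rw [Nat.card_congr (Subgroup.subgroupOfEquivOfLe hK).toEquiv] at e1
  rw [Nat.card_congr (addSubgroupOfEquivOfLe hD).toEquiv] at e2
  have hle := Nat.card_le_card_of_injective f hf
  rw [e1, e2]
  refine ⟨by nlinarith [Nat.mul_le_mul_right (Nat.card K0 * Nat.card D) hle], fun h2 m hm => ?_⟩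
  have hpos : 0 < Nat.card K0 * Nat.card D := Nat.mul_pos Nat.card_pos Nat.card_pos
  have hge : Nat.card (M ⧸ D.addSubgroupOf M) ≤ Nat.card (K ⧸ K0.subgroupOf K) :=
    Nat.le_of_mul_le_mul_right (by nlinarith) hpos
  have hb := (Nat.bijective_iff_injective_and_card f).2 ⟨hf, le_antisymm hle hge⟩
  obtain ⟨⟨a⟩, ha⟩ := hb.2 (QuotientAddGroup.mk ⟨m, hm⟩)
  refine ⟨a, a.2, ?_⟩
  have := QuotientAddGroup.eq.1 ha
  rw [mem_addSubgroupOf] at this
  rw [← neg_add_eq_sub]
  exact this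

/-- The data coming from a large abelian subgroup `A` acting on a normal subgroup of class two. -/
structure Setup (b : V →+ V →+ V) (A0 : Subgroup A) (Z : AddSubgroup V) : Prop where
  alt : ∀ x, b x x = 0
  equiv : ∀ (a : A) x y, a • b x y = b (a • x) (a • y)
  two : ∀ x : V, x + x = 0 → x = 0
  nil : ∃ n, (mm A)^[n] (⊤ : AddSubgroup V) ≤ ⊥
  fixab : ∀ c ∈ fix A V, ∀ c' ∈ fix A V, b c c' = 0
  zc : ∀ z ∈ Z, ∀ v, b z v = 0
  bz : ∀ x y, b x y ∈ Z
  zinv : mm A Z ≤ Z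
  a0z : ∀ a ∈ A0, ∀ v, L a v ∈ Z
  ineq : ∀ (M : AddSubgroup V) (B : Subgroup A) (n : A → V), (∀ x ∈ M, ∀ y ∈ M, b x y = 0) →
    (∀ a ∈ B, ∀ x ∈ M, a • (x + b (n a) x) = x) →
    (∀ a ∈ B, ∀ a' ∈ B, L a'⁻¹ (n a) ∈ Z ∧ L a'⁻¹ (n a) + b (n a) (n a') = L a⁻¹ (n a')) →
    Nat.card B * Nat.card M ≤ Nat.card A * Nat.card (fix A V)
  max : ∀ (M : AddSubgroup V) (B : Subgroup A), fix A V < M → (∀ x ∈ M, ∀ y ∈ M, b x y = 0) →
    (∀ a ∈ B, ∀ x ∈ M, a • x = x) →
    Nat.card A * Nat.card (fix A V) ≤ Nat.card B * Nat.card M → B ≤ A0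

/-- All brackets between `X` and `Y` lie in `D`. -/
def BrIn (b : V →+ V →+ V) (X Y D : AddSubgroup V) : Prop := ∀ x ∈ X, ∀ y ∈ Y, b x y ∈ D

section BrIn

variable {b : V →+ V →+ V} {X Y D X' Y' : AddSubgroup V}

omit [CommGroup A] [DistribMulAction A V] in
theorem BrIn.mono (h : BrIn b X Y D) (h1 : X' ≤ X) (h2 : Y' ≤ Y) : BrIn b X' Y' D :=
  fun x hx y hy => h x (h1 hx) y (h2 hy)

theorem brIn_mm_left (h : ∀ a : A, ∀ x ∈ X, ∀ y ∈ Y, b (L a x) y ∈ D) : BrIn b (mm A X) Y D :=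
  fun _ hx y hy => (mm_le_iff (N := D.comap (b.flip y))).2 (fun a x hx => h a x hx y hy) hx

theorem brIn_mm_right (h : ∀ a : A, ∀ x ∈ X, ∀ y ∈ Y, b x (L a y) ∈ D) : BrIn b X (mm A Y) D :=
  fun x hx _ hy => (mm_le_iff (N := D.comap (b x))).2 (fun a y hy => h a x hx y hy) hy

omit [CommGroup A] [DistribMulAction A V] in
theorem BrIn.sup_left (h : BrIn b X Y D) (h' : BrIn b X' Y D) : BrIn b (X ⊔ X') Y D :=
  fun _ hx y hy => (sup_le (a := X) (b := X') (c := D.comap (b.flip y)) (fun x hx => h x hx y hy)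
    (fun x hx => h' x hx y hy)) hx

omit [CommGroup A] [DistribMulAction A V] in
theorem BrIn.sup_right (h : BrIn b X Y D) (h' : BrIn b X Y' D) : BrIn b X (Y ⊔ Y') D :=
  fun x hx _ hy => (sup_le (a := Y) (b := Y') (c := D.comap (b x)) (fun y hy => h x hx y hy)
    (fun y hy => h' x hx y hy)) hy

end BrIn

theorem iter_succ (n : ℕ) (M : AddSubgroup V) : (mm A)^[n + 1] M = mm A ((mm A)^[n] M) :=
  Function.iterate_succ_apply' _ _ _

theorem iter_mono (n : ℕ) {M N : AddSubgroup V} (h : M ≤ N) : (mm A)^[n] M ≤ (mm A)^[n] N :=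
  Monotone.iterate (fun _ _ => mm_mono) n h

namespace Setup

variable {b : V →+ V →+ V} {A0 : Subgroup A} {Z : AddSubgroup V} (s : Setup b A0 Z)
include s

theorem anti (x y : V) : b x y = -b y x := by
  have := s.alt (x + y)
  simp only [map_add, AddMonoidHom.add_apply, s.alt] at this
  linear_combination (norm := abel) this

theorem zc' {z : V} (hz : z ∈ Z) (v : V) : b v z = 0 := by rw [s.anti, s.zc z hz, neg_zero]

theorem L_br (a : A) (x y : V) :
    L a (b x y) = b (L a x) y + b x (L a y) + b (L a x) (L a y) := by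
  rw [L_apply, s.equiv, smul_eq a x, smul_eq a y]
  simp only [map_add, AddMonoidHom.add_apply]
  abel

theorem br_L (a : A) (x y : V) : b (L a x) y = b x (L a⁻¹ y) + L a (b x (a⁻¹ • y)) := by
  simp only [L_apply, map_sub, AddMonoidHom.sub_apply, s.equiv, smul_inv_smul]
  abel

theorem a0b {a : A} (ha : a ∈ A0) (x y : V) : L a (b x y) = 0 := by
  rw [s.L_br, s.zc _ (s.a0z a ha x), s.zc _ (s.a0z a ha x), s.zc' (s.a0z a ha y)]
  simp

theorem brIn_swap {X Y D : AddSubgroup V} (h : BrIn b X Y D) : BrIn b Y X D :=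
  fun x hx y hy => by rw [s.anti]; exact neg_mem (h y hy x hx)

theorem down {P : ℕ → Prop} (M : AddSubgroup V) (h0 : ∀ n, (mm A)^[n] M ≤ ⊥ → P n) (k : ℕ)
    (h1 : ∀ n, k ≤ n → P (n + 1) → P n) (h2 : ∀ n, P n → P (n + 1)) : P k := by
  obtain ⟨n, hn⟩ := s.nil
  have h3 : P n := h0 n ((iter_mono n le_top).trans hn)
  rcases le_total n k with h | h
  · exact Nat.le_induction h3 (fun m _ => h2 m) k h
  · exact Nat.decreasingInduction' (fun m _ hm => h1 m hm) h h3

theorem eq_bot_of_le_mm {M : AddSubgroup V} (h : M ≤ mm A M) : M ≤ ⊥ := by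
  obtain ⟨n, hn⟩ := s.nil
  refine le_trans ?_ ((iter_mono n (le_top (a := M))).trans hn)
  clear hn
  induction n with
  | zero => exact le_rfl
  | succ n ih => rw [iter_succ]; exact h.trans (mm_mono ih)

variable (A b) in
/-- The vectors to which Thompson's replacement applies. -/
def Good (w : V) : Prop := BrIn b (m1 A w) (m1 A w) ⊥ ∧ BrIn b (m1 A w) (fix A V) ⊥

theorem fix_inv : mm A (fix A V) ≤ fix A V := mm_fix.trans bot_le

variable [Finite A] [Finite V]

theorem good_aux {w : V} (h : Good A b w) :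
    BrIn b (m1 A w ⊔ fix A V) (m1 A w ⊔ fix A V) ⊥ ∧
    (∀ a ∈ stab w (fix A V) s.fix_inv, ∀ x ∈ m1 A w ⊔ fix A V, a • x = x) ∧
    Nat.card A * Nat.card (fix A V) ≤
      Nat.card (stab w (fix A V) s.fix_inv) * Nat.card (m1 A w ⊔ fix A V : AddSubgroup V) ∧
    ∀ m ∈ m1 A w, ∃ a : A, m - L a w ∈ fix A V := by
  have h1 : BrIn b (m1 A w ⊔ fix A V) (m1 A w ⊔ fix A V) ⊥ :=
    (h.1.sup_right h.2).sup_left ((s.brIn_swap h.2).sup_right s.fixab)
  have h2 : ∀ a ∈ stab w (fix A V) s.fix_inv, ∀ x ∈ m1 A w ⊔ fix A V, a • x = x := by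
    intro a ha x hx
    refine L_eq_zero.1 ((sup_le (c := (L a).ker) (m1_le_iff.2 fun a' => ?_) (fix_le_ker a)) hx)
    rw [AddMonoidHom.mem_ker, L_comm]
    exact ha a'
  obtain ⟨c1, c2⟩ := count (K := (⊤ : Subgroup A)) (K0 := stab w (fix A V) s.fix_inv) le_top
    (le_sup_right : fix A V ≤ m1 A w ⊔ fix A V) (fun a => L a w)
    (fun a _ => mem_sup_left (L_mem_m1 a w)) fun a _ a' _ => sub_mem_iff_stab w _ _ a a'
  rw [Subgroup.card_top] at c1 c2
  refine ⟨h1, h2, c1, fun m hm => ?_⟩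
  obtain ⟨a, -, ha⟩ := c2 (s.ineq _ _ 0 h1 (fun a ha x hx => by simpa using h2 a ha x hx)
    (fun a _ a' _ => by simp)) m (mem_sup_left hm)
  exact ⟨a, ha⟩

/-- Thompson's equality. -/
theorem p2 {w : V} (h : Good A b w) {m : V} (hm : m ∈ m1 A w) :
    ∃ a : A, m - L a w ∈ fix A V := (s.good_aux h).2.2.2 m hm

/-- Replacement. -/
theorem p1 {w : V} (h : Good A b w) {a : A} (ha : a ∉ A0) (h1 : L a w ∈ fix A V) :
    m1 A w ≤ fix A V := by
  by_contra hc
  obtain ⟨k1, k2, k3, -⟩ := s.good_aux h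
  exact ha (s.max _ _ (right_lt_sup.2 hc) k1 k2 k3 h1)

theorem descent {w : V} (h : ∀ w' ∈ m1 A w, Good A b w') {U : AddSubgroup V}
    (hU : mm A U ≤ fix A V) {a : A} (ha : a ∉ A0)
    (h1 : L a w ∈ mm A (m1 A w) ⊔ (fix A V ⊔ U)) : mm A (m1 A w) ≤ fix A V := by
  have key : ∀ k, (mm A)^[k] (m1 A w) ≤
      ((mm A)^[k + 2] (m1 A w) ⊔ fix A V).comap (L a) := by
    intro k
    induction k with
    | zero =>
      refine m1_le_iff.2 fun a' => ?_
      rw [mem_comap, L_comm]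
      refine ((mm_sup _ _).trans (sup_le_sup le_rfl ((mm_sup _ _).trans
        (sup_le s.fix_inv hU)))) (L_mem_mm a' h1)
    | succ k ih =>
      rw [iter_succ]
      refine mm_le_iff.2 fun a' y hy => ?_
      rw [mem_comap, L_comm, show k + 1 + 2 = (k + 2) + 1 from rfl, iter_succ]
      exact ((mm_sup _ _).trans (sup_le_sup le_rfl s.fix_inv)) (L_mem_mm a' (ih hy))
  have hle : ∀ k, (mm A)^[k] (m1 A w) ≤ m1 A w := fun k => by
    induction k with
    | zero => exact le_rfl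
    | succ k ih => rw [iter_succ]; exact (mm_mono ih).trans (mm_m1_le w)
  refine s.down (P := fun n => (mm A)^[n] (m1 A w) ≤ fix A V) (m1 A w)
    (fun n hn => hn.trans bot_le) 1 (fun n hn hP => ?_) fun n hP => ?_
  · obtain ⟨k, rfl⟩ : ∃ k, n = k + 1 := ⟨n - 1, by omega⟩
    rw [iter_succ]
    exact mm_le_of_m1 fun w' hw' => s.p1 (h w' (hle k hw')) ha
      ((sup_le hP le_rfl : _ ≤ fix A V) (key k hw'))
  · rw [iter_succ]; exact (mm_mono hP).trans s.fix_inv

theorem good_of_mem {z : V} (hz : z ∈ Z) : Good A b z :=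
  have h : m1 A z ≤ Z := (m1_le_mm hz).trans s.zinv
  ⟨fun x hx y _ => s.zc x (h hx) y, fun x hx y _ => s.zc x (h hx) y⟩

/-- Degree three on the chief factors inside `Z`. -/
theorem deg_three {X Y : AddSubgroup V} (hX : X ≤ Z) (hY : mm A Y ≤ Y)
    (h : ∀ a ∈ A0, ∀ x ∈ X, L a x ∈ Y) : mm A (mm A (mm A X)) ≤ Y := by
  have key : ∀ z ∈ X, mm A (m1 A z) ≤ Y ⊔ fix A V := fun z hz n hn => by
    obtain ⟨a, ha⟩ := s.p2 (s.good_of_mem (hX hz)) (mm_m1_le z hn)
    by_cases h0 : a ∈ A0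
    · rw [show n = L a z + (n - L a z) by abel]
      exact add_mem (mem_sup_left (h a h0 z hz)) (mem_sup_right ha)
    · refine mem_sup_right (s.descent (U := ⊥) (fun w' hw' => s.good_of_mem
        (((m1_le_mm (hX hz)).trans s.zinv) hw')) ((mm_mono bot_le).trans s.fix_inv) h0 ?_ hn)
      rw [show L a z = n - (n - L a z) by abel]
      exact sub_mem (mem_sup_left hn) (mem_sup_right (mem_sup_left ha))
  have k2 : mm A (mm A X) ≤ Y ⊔ fix A V := mm_le_iff.2 fun a =>
    show mm A X ≤ (Y ⊔ fix A V).comap (L a) from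
      mm_le_iff.2 fun a' z hz => key z hz (L_mem_mm a (L_mem_m1 a' z))
  exact (mm_mono k2).trans ((mm_sup _ _).trans (sup_le hY (mm_fix.trans bot_le)))

/-- The action on the derived subgroup is quadratic. -/
theorem quad (a : A) (x y : V) : L a (b x y) ∈ fix A V := by
  by_contra hc
  set u := b x y with hu
  have hZ : u ∈ Z := s.bz x y
  have hle : m1 A u ≤ Z := (m1_le_mm hZ).trans s.zinv
  obtain ⟨-, -, k3, -⟩ := s.good_aux (s.good_of_mem hZ)
  have hB : stab u (fix A V) s.fix_inv ≤ A0 := fun a' ha' => by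
    by_contra h0
    exact hc (s.p1 (s.good_of_mem hZ) h0 ha' (L_mem_m1 a u))
  have hM : zmultiples u ⊔ m1 A u ≤ Z := sup_le (zmultiples_le_of_mem hZ) hle
  have k4 := s.ineq ((zmultiples u ⊔ m1 A u) ⊔ fix A V) (stab u (fix A V) s.fix_inv) 0
    (BrIn.sup_left (D := ⊥) (fun x hx y _ => s.zc x (hM hx) y)
      (BrIn.sup_right (fun x _ y hy => s.zc' (hM hy) x) s.fixab))
    (fun a' ha' v hv => by
      have h0 := s.a0b (hB ha') x y
      simp only [Pi.zero_apply, map_zero, AddMonoidHom.zero_apply, add_zero]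
      refine L_eq_zero.1 ((sup_le (c := (L a').ker) (sup_le (zmultiples_le_of_mem h0)
        (m1_le_iff.2 fun a'' => ?_)) (fix_le_ker a')) hv)
      rw [AddMonoidHom.mem_ker, L_comm, h0, map_zero])
    (fun a _ a' _ => by simp)
  have k5 := Nat.le_of_mul_le_mul_left (k4.trans k3) Nat.card_pos
  have k6 := AddSubgroup.eq_of_le_of_card_ge (sup_le_sup_right le_sup_right (fix A V)) k5
  have k7 : u ∈ m1 A u ⊔ fix A V := k6.ge (mem_sup_left (mem_sup_left (mem_zmultiples u)))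
  have k8 : m1 A u ≤ mm A (m1 A u) := (m1_le_mm k7).trans
    ((mm_sup _ _).trans (sup_le le_rfl (mm_fix.trans bot_le)))
  exact hc ((s.eq_bot_of_le_mm k8).trans bot_le (L_mem_m1 a u))

end Setup

end CL.JTr
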