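import Cfsg.Agent.PLOC.JTr.Mod

/-!
The action of a suitably chosen large abelian subgroup on `T / Z(T)` has degree at most four.
-/

set_option autoImplicit false

namespace CL.JTr

open AddSubgroup

variable {A V : Type*} [CommGroup A] [AddCommGroup V] [DistribMulAction A V]

theorem iter_inv {W : AddSubgroup V} (hW : mm A W ≤ W) (k : ℕ) :
    mm A ((mm A)^[k] W) ≤ (mm A)^[k] W := by
  rw [← iter_succ, Function.iterate_succ_apply]
  exact iter_mono k hW

theorem iter_anti {W : AddSubgroup V} (hW : mm A W ≤ W) {i j : ℕ} (h : i ≤ j) :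
    (mm A)^[j] W ≤ (mm A)^[i] W := by
  induction j, h using Nat.le_induction with
  | base => exact le_rfl
  | succ j _ ih => rw [iter_succ]; exact (iter_inv hW j).trans ih

theorem L_mem_iter (a : A) {W : AddSubgroup V} {k : ℕ} {x : V} (h : x ∈ (mm A)^[k] W) :
    L a x ∈ (mm A)^[k + 1] W := by
  rw [iter_succ]; exact L_mem_mm a h

namespace Setup

variable {b : V →+ V →+ V} {A0 : Subgroup A} {Z : AddSubgroup V} (s : Setup b A0 Z)
  [Finite A] [Finite V]
include s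

section Vanish

variable {W : AddSubgroup V} (hW : mm A W ≤ W) (h5 : (mm A)^[5] W ≤ Z)
include hW h5

theorem c5 (i : ℕ) : ∀ j, 5 ≤ i + j → BrIn b ((mm A)^[i] W) ((mm A)^[j] W) (fix A V) := by
  induction i with
  | zero =>
    intro j hj x _ y hy
    rw [s.zc' (h5 (iter_anti hW (by omega) hy))]
    exact zero_mem _
  | succ i ih =>
    intro j hj
    rw [iter_succ]
    refine brIn_mm_left fun a x hx y hy => ?_
    rw [s.br_L]
    exact add_mem (ih (j + 1) (by omega) x hx _ (L_mem_iter _ hy)) (s.quad _ _ _)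

theorem c6 (i : ℕ) : ∀ j, 6 ≤ i + j → BrIn b ((mm A)^[i] W) ((mm A)^[j] W) ⊥ := by
  induction i with
  | zero =>
    intro j hj x _ y hy
    exact s.zc' (h5 (iter_anti hW (by omega) hy)) x
  | succ i ih =>
    intro j hj
    rw [iter_succ]
    refine brIn_mm_left fun a x hx y hy => ?_
    rw [s.br_L]
    exact add_mem (ih (j + 1) (by omega) x hx _ (L_mem_iter _ hy))
      (s.c5 hW h5 i j (by omega) x hx _ (smul_mem_of (iter_inv hW j) _ hy) a)

theorem rel {i j : ℕ} (h : 3 ≤ i + j) (a a' : A) {x y : V} (hx : x ∈ (mm A)^[i] W)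
    (hy : y ∈ (mm A)^[j] W) :
    b (L a (L a' x)) y + b (L a' x) (L a y) + b (L a x) (L a' y) + b x (L a (L a' y)) = 0 := by
  have h0 := s.quad a' x y a
  have h1 : b (L a (L a' x)) (L a y) = 0 := s.c6 hW h5 (i + 1 + 1) (j + 1) (by omega) _
    (L_mem_iter a (L_mem_iter a' hx)) _ (L_mem_iter a hy)
  have h2 : b (L a x) (L a (L a' y)) = 0 := s.c6 hW h5 (i + 1) (j + 1 + 1) (by omega) _
    (L_mem_iter a hx) _ (L_mem_iter a (L_mem_iter a' hy))
  have h3 : L a (b (L a' x) (L a' y)) = 0 := s.c5 hW h5 (i + 1) (j + 1) (by omega) _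
    (L_mem_iter a' hx) _ (L_mem_iter a' hy) a
  rw [s.L_br a', map_add, map_add, h3, s.L_br, s.L_br, h1, h2] at h0
  linear_combination (norm := abel) h0

theorem b41 (a1 a2 a3 a4 a5 : A) {v : V} (hv : v ∈ W) :
    b (L a1 (L a2 (L a3 (L a4 v)))) (L a5 v) = 0 := by
  have v0 : v ∈ (mm A)^[0] W := hv
  have r1 := s.rel hW h5 (i := 3) (j := 0) le_rfl a1 a5
    (L_mem_iter a2 (L_mem_iter a3 (L_mem_iter a4 v0))) v0
  have r2 := s.rel hW h5 (i := 2) (j := 1) le_rfl a2 a5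
    (L_mem_iter a3 (L_mem_iter a4 v0)) (L_mem_iter a1 v0)
  have r3 := s.rel hW h5 (i := 1) (j := 2) le_rfl a3 a5
    (L_mem_iter a4 v0) (L_mem_iter a1 (L_mem_iter a2 v0))
  have r4 := s.rel hW h5 (i := 0) (j := 3) le_rfl a4 a5
    v0 (L_mem_iter a1 (L_mem_iter a2 (L_mem_iter a3 v0)))
  have z : ∀ c1 c2 c3 c4 c5 : A, L c1 (L c2 (L c3 (L c4 (L c5 v)))) ∈ Z := fun c1 c2 c3 c4 c5 =>
    h5 (L_mem_iter c1 (L_mem_iter c2 (L_mem_iter c3 (L_mem_iter c4 (L_mem_iter c5 v0)))))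
  rw [s.zc _ (z _ _ _ _ _)] at r1
  rw [s.zc' (z _ _ _ _ _), s.anti (L a5 v)] at r4
  apply s.two
  simp only [L_comm] at r1 r2 r3 r4 ⊢
  linear_combination (norm := abel) r1 - r2 + r3 - r4

theorem b32 (a1 a2 a3 a4 a5 : A) {v : V} (hv : v ∈ W) :
    b (L a1 (L a2 (L a3 v))) (L a4 (L a5 v)) = 0 := by
  have v0 : v ∈ (mm A)^[0] W := hv
  have r1 := s.rel hW h5 (i := 3) (j := 0) le_rfl a4 a5
    (L_mem_iter a1 (L_mem_iter a2 (L_mem_iter a3 v0))) v0
  rw [s.b41 hW h5 _ _ _ _ _ hv, s.b41 hW h5 _ _ _ _ _ hv, s.zc _ (h5 (L_mem_iter a4 (L_mem_iter a5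
    (L_mem_iter a1 (L_mem_iter a2 (L_mem_iter a3 v0))))))] at r1
  simpa using r1

end Vanish

theorem br_m1_fix (a : A) (v : V) : BrIn b (m1 A (L a v)) (fix A V) ⊥ := fun x hx c hc => by
  refine (m1_le_iff (N := (⊥ : AddSubgroup V).comap (b.flip c))).2 (fun a' => ?_) hx
  have h : ∀ a y, L a (b y c) = b (L a y) c := fun a y => by rw [s.L_br, hc a]; simp
  change b (L a' (L a v)) c = 0
  rw [← h, ← h]
  exact s.quad a v c a'

section Limit

variable {w : V} (f1 : BrIn b (mm A (m1 A w)) (m1 A w) ⊥)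
  (f2 : ∀ n ∈ mm A (mm A (m1 A w)), b n w = 0) (f3 : BrIn b (m1 A w) (fix A V) ⊥)

include f1 in
theorem g1 (x y : A) : L x (b (L y w) w) - L y (b (L x w) w) =
    b (L y w) (L x w) + b (L y w) (L x w) := by
  rw [s.L_br, s.L_br, mem_bot.1 (f1 _ (L_mem_mm x (L_mem_m1 y w)) _ (L_mem_m1 x w)),
    mem_bot.1 (f1 _ (L_mem_mm y (L_mem_m1 x w)) _ (L_mem_m1 y w)), L_comm x y,
    s.anti (L x w) (L y w)]
  abel

include f1 f2 in
theorem g2 {n : V} (hn : n ∈ mm A (m1 A w)) : b n w ∈ fix A V := fun z => by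
  rw [s.L_br, f2 _ (L_mem_mm z hn), mem_bot.1 (f1 _ hn _ (L_mem_m1 z w)),
    mem_bot.1 (f1 _ (mm_mm_le _ (L_mem_mm z hn)) _ (L_mem_m1 z w))]
  simp

include f1 f2 in
theorem g3 (x y : A) : b (L (x * y) w) w - b (L x w) w - b (L y w) w ∈ fix A V := by
  rw [L_mul, map_add, map_add, AddMonoidHom.add_apply, AddMonoidHom.add_apply]
  convert s.g2 f1 f2 (L_mem_mm x (L_mem_m1 y w)) using 1
  abel

include f1 f2 in
theorem g4 (x : A) : b (L x⁻¹ w) w + b (L x w) w ∈ fix A V := by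
  have := neg_mem (s.g3 f1 f2 x⁻¹ x)
  rw [inv_mul_cancel, L_one] at this
  convert this using 1
  simp only [map_zero, AddMonoidHom.zero_apply]
  abel

/-- The kernel of the quadratic part. -/
def kerL : Subgroup A where
  carrier := {a | b (L a w) w ∈ fix A V}
  one_mem' := by change b (L (1 : A) w) w ∈ fix A V; rw [L_one]; simp
  mul_mem' := fun {x y} hx hy => by
    have := add_mem (add_mem (s.g3 f1 f2 x y) hx) hy
    change b (L (x * y) w) w ∈ fix A V
    convert this using 1; abel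
  inv_mem' := fun {x} hx => by
    have := sub_mem (s.g4 f1 f2 x) hx
    change b (L x⁻¹ w) w ∈ fix A V
    convert this using 1; abel

/-- The image of the quadratic part. -/
def imL : AddSubgroup V where
  carrier := {v | ∃ a : A, v - b (L a w) w ∈ fix A V}
  zero_mem' := ⟨1, by rw [L_one]; simp⟩
  add_mem' := by
    rintro u v ⟨x, hx⟩ ⟨y, hy⟩
    refine ⟨x * y, ?_⟩
    convert sub_mem (add_mem hx hy) (s.g3 f1 f2 x y) using 1; abel
  neg_mem' := by
    rintro u ⟨x, hx⟩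
    refine ⟨x⁻¹, ?_⟩
    convert sub_mem (neg_mem hx) (s.g4 f1 f2 x) using 1; abel

theorem fix_le_imL : fix A V ≤ s.imL f1 f2 := fun v hv => ⟨1, by rw [L_one]; simpa using hv⟩

theorem mm_imL : mm A (s.imL f1 f2) ≤ fix A V := mm_le_iff.2 (by
  rintro a v ⟨x, hx⟩
  have h := hx a
  rw [map_sub, sub_eq_zero] at h
  rw [h]
  exact s.quad _ _ _)

theorem imL_inv : mm A (s.imL f1 f2) ≤ s.imL f1 f2 := (s.mm_imL f1 f2).trans (s.fix_le_imL f1 f2)

include f3 in
theorem br_imL : BrIn b (m1 A w) (s.imL f1 f2) ⊥ := by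
  rintro x hx v ⟨y, hy⟩
  have h := mem_bot.1 (f3 x hx _ hy)
  rw [map_sub, s.zc' (s.bz _ _), sub_zero] at h
  exact h

theorem br_imL' : BrIn b (s.imL f1 f2) (s.imL f1 f2) ⊥ := by
  rintro u ⟨x, hx⟩ v ⟨y, hy⟩
  have h := s.fixab _ hx _ hy
  rw [map_sub, s.zc' (s.bz _ _), sub_zero, map_sub, AddMonoidHom.sub_apply, s.zc _ (s.bz _ _),
    sub_zero] at h
  exact h

/-- The part of the limit subgroup inside `T`. -/
def bigM : AddSubgroup V where
  carrier := {v | ∃ a ∈ s.kerL f1 f2, v - L a w ∈ mm A (m1 A w) ⊔ s.imL f1 f2}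
  zero_mem' := ⟨1, one_mem _, by rw [L_one]; simp⟩
  add_mem' := by
    rintro u v ⟨x, kx, hx⟩ ⟨y, ky, hy⟩
    refine ⟨x * y, mul_mem kx ky, ?_⟩
    rw [L_mul]
    convert sub_mem (add_mem hx hy) (mem_sup_left (L_mem_mm x (L_mem_m1 y w))) using 1; abel
  neg_mem' := by
    rintro u ⟨x, kx, hx⟩
    refine ⟨x⁻¹, inv_mem kx, ?_⟩
    have h := L_mul x⁻¹ x w
    rw [inv_mul_cancel, L_one] at h
    convert add_mem (neg_mem hx) (mem_sup_left (L_mem_mm x⁻¹ (L_mem_m1 x w))) using 1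
    linear_combination (norm := abel) h

theorem le_bigM : mm A (m1 A w) ⊔ s.imL f1 f2 ≤ s.bigM f1 f2 :=
  fun v hv => ⟨1, one_mem _, by rw [L_one]; simpa using hv⟩

theorem bigM_le {N : AddSubgroup V} (h1 : ∀ a ∈ s.kerL f1 f2, L a w ∈ N)
    (h2 : mm A (m1 A w) ≤ N) (h3 : s.imL f1 f2 ≤ N) : s.bigM f1 f2 ≤ N := by
  rintro v ⟨x, kx, hx⟩
  simpa using add_mem (sup_le h2 h3 hx) (h1 x kx)

include f3 in
theorem bigM_ab : BrIn b (s.bigM f1 f2) (s.bigM f1 f2) ⊥ := by
  have i1 := s.br_imL f1 f2 f3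
  intro x hx y hy
  refine s.bigM_le f1 f2 (N := (⊥ : AddSubgroup V).comap (b x)) (fun a' ha' => ?_)
    (fun y hy => ?_) (fun y hy => ?_) hy
  · refine s.bigM_le f1 f2 (N := (⊥ : AddSubgroup V).comap (b.flip (L a' w))) (fun a ha => ?_)
      (fun x hx => f1 x hx _ (L_mem_m1 a' w)) (fun x hx => s.brIn_swap i1 x hx _ (L_mem_m1 a' w)) hx
    have h := s.g1 f1 a' a
    rw [ha a', ha' a, sub_zero] at h
    exact s.two _ h.symm
  · exact s.bigM_le f1 f2 (N := (⊥ : AddSubgroup V).comap (b.flip y))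
      (fun a _ => s.brIn_swap f1 _ (L_mem_m1 a w) y hy) (fun x hx => f1 x hx _ (mm_m1_le w hy))
      (fun x hx => s.brIn_swap i1 x hx _ (mm_m1_le w hy)) hx
  · exact s.bigM_le f1 f2 (N := (⊥ : AddSubgroup V).comap (b.flip y))
      (fun a _ => i1 _ (L_mem_m1 a w) y hy) (fun x hx => i1 x (mm_m1_le w hx) _ hy)
      (fun x hx => s.br_imL' f1 f2 x hx y hy) hx

include f1 f2 f3 in
/-- The limit form of the replacement theorem. -/
theorem p3 {n : V} (hn : n ∈ mm A (m1 A w)) : ∃ a : A, n - L a w ∈ s.imL f1 f2 := by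
  have i1 := s.br_imL f1 f2 f3
  obtain ⟨c1, -⟩ := count (K := (⊤ : Subgroup A)) (K0 := s.kerL f1 f2) le_top
    (s.fix_le_imL f1 f2) (fun a => b (L a w) w) (fun a _ => ⟨a, by simp⟩) fun a _ a' _ => by
      have h1 := add_mem (s.g3 f1 f2 a a'⁻¹) (s.g4 f1 f2 a')
      change _ ↔ b (L (a * a'⁻¹) w) w ∈ fix A V
      refine ⟨fun h => ?_, fun h => ?_⟩
      · convert add_mem h1 h using 1; abel
      · convert sub_mem h h1 using 1; abel
  rw [Subgroup.card_top] at c1
  let K0 := s.kerL f1 f2 ⊓ stab w _ (s.imL_inv f1 f2)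
  obtain ⟨-, c2⟩ := count (K := s.kerL f1 f2) (K0 := K0) inf_le_left
    (le_sup_right.trans (s.le_bigM f1 f2)) (fun a => L a w) (fun a ha => ⟨a, ha, by simp⟩)
    fun a ha a' ha' => (sub_mem_iff_stab w _ (s.imL_inv f1 f2) a a').trans
      ⟨fun h => Subgroup.mem_inf.2 ⟨mul_mem ha (inv_mem ha'), h⟩, fun h => h.2⟩
  have hex : ∀ a : A, ∃ a' : A, a ∈ K0 → L a w - b (L a' w) w ∈ fix A V := fun a => by
    by_cases h : a ∈ K0
    · exact h.2.imp fun _ k _ => k
    · exact ⟨1, fun k => absurd k h⟩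
  choose φ hφ using hex
  have e1 : ∀ a ∈ K0, ∀ y : A, L y (L a w) = L y (b (L (φ a) w) w) := fun a ha y => by
    have h := hφ a ha y
    rwa [map_sub, sub_eq_zero] at h
  have e2 : ∀ a ∈ K0, ∀ y : A, L a⁻¹ (-(L y w + L y w)) =
      L y (b (L (φ a) w) w) + L y (b (L (φ a) w) w) := fun a ha y => by
    rw [map_neg, map_add, L_inv, L_comm, e1 a ha, smul_of_fix (s.quad _ _ _)]
    abel
  refine (c2 ((s.ineq (s.bigM f1 f2) K0 (fun a => -(L (φ a) w + L (φ a) w))
    (s.bigM_ab f1 f2 f3) (fun a ha x hx => ?_) fun a ha a' ha' => ?_).trans c1) n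
    (s.le_bigM f1 f2 (mem_sup_left hn))).imp fun a h => h.2
  · have key : L a x + b (-(L (φ a) w + L (φ a) w)) x = 0 ∧
        L a (b (-(L (φ a) w + L (φ a) w)) x) = 0 := by
      refine s.bigM_le f1 f2 (N := (L a + b (-(L (φ a) w + L (φ a) w))).ker ⊓
        ((L a).comp (b (-(L (φ a) w + L (φ a) w)))).ker) (fun y hy => ?_) (fun y hy => ?_)
        (fun y hy => ?_) hx
      · have h := s.g1 f1 y (φ a)
        rw [hy (φ a), sub_zero] at h
        have h' : b (-(L (φ a) w + L (φ a) w)) (L y w) = -L y (b (L (φ a) w) w) := by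
          rw [h]; simp only [map_neg, map_add, AddMonoidHom.neg_apply, AddMonoidHom.add_apply]
        refine ⟨?_, ?_⟩
        · change L a (L y w) + b _ (L y w) = 0
          rw [h', L_comm, e1 a ha, add_neg_cancel]
        · change L a (b _ (L y w)) = 0
          rw [h', map_neg, s.quad _ _ _ a, neg_zero]
      · have h' : b (-(L (φ a) w + L (φ a) w)) y = 0 := s.brIn_swap f1 _
          (neg_mem (add_mem (L_mem_m1 _ w) (L_mem_m1 _ w))) y hy
        refine ⟨?_, ?_⟩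
        · change L a y + b _ y = 0
          rw [h', add_zero]
          refine (mm_le_iff (N := (L a).ker)).2 (fun a1 => ?_) hy
          change m1 A w ≤ (L a).ker.comap (L a1)
          refine m1_le_iff.2 fun a2 => ?_
          change L a (L a1 (L a2 w)) = 0
          rw [L_comm a a1, L_comm a a2, e1 a ha]
          exact s.quad _ _ _ a1
        · change L a (b _ y) = 0
          rw [h', map_zero]
      · have h' : b (-(L (φ a) w + L (φ a) w)) y = 0 :=
          i1 _ (neg_mem (add_mem (L_mem_m1 _ w) (L_mem_m1 _ w))) y hy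
        refine ⟨?_, ?_⟩
        · change L a y + b _ y = 0
          obtain ⟨y', hy'⟩ := hy
          have h1 := hy' a
          have h2 := s.g1 f1 a y'
          rw [ha.1 y', sub_zero, mem_bot.1 (i1 _ (L_mem_m1 y' w) _ ha.2), add_zero] at h2
          rw [map_sub, h2, sub_zero] at h1
          rw [h', h1, add_zero]
        · change L a (b _ y) = 0
          rw [h', map_zero]
    rw [smul_eq, map_add, key.2]
    linear_combination (norm := abel) key.1
  · rw [e2 a' ha', e2 a ha]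
    have hz := s.zinv (L_mem_mm (φ a) (s.bz (L (φ a') w) w))
    refine ⟨add_mem hz hz, ?_⟩
    have h := s.g1 f1 (φ a) (φ a')
    simp only [map_neg, map_add, AddMonoidHom.neg_apply, AddMonoidHom.add_apply]
    rw [s.anti (L (φ a) w) (L (φ a') w)]
    linear_combination (norm := abel) h + h

include f1 f2 f3 in
theorem cube_le : mm A (mm A (m1 A w)) ≤ Z := by
  refine mm_le_iff.2 fun g n hn => ?_
  obtain ⟨a, ha⟩ := s.p3 f1 f2 f3 hn
  by_cases h0 : a ∈ A0
  · obtain ⟨y, hy⟩ := ha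
    have h := hy g
    rw [map_sub, map_sub, sub_sub, sub_eq_zero] at h
    rw [h]
    exact add_mem (s.zinv (L_mem_mm g (s.a0z a h0 w))) (s.zinv (L_mem_mm g (s.bz _ _)))
  · have h := s.descent (w := w) (fun w' hw' => ⟨f1.mono (m1_le_mm hw')
      ((m1_le_mm hw').trans (mm_m1_le w)), f3.mono ((m1_le_mm hw').trans (mm_m1_le w)) le_rfl⟩)
      (s.mm_imL f1 f2) h0 (by
        rw [show L a w = n - (n - L a w) by abel]
        exact sub_mem (mem_sup_left hn) (mem_sup_right (mem_sup_right ha))) hn g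
    rw [h]; exact zero_mem _

end Limit

theorem step {W : AddSubgroup V} (hW : mm A W ≤ W) (h5 : (mm A)^[5] W ≤ Z) :
    (mm A)^[4] W ≤ Z := by
  have key : ∀ a0 : A, ∀ v ∈ W, mm A (mm A (m1 A (L a0 v))) ≤ Z := fun a0 v hv => by
    refine s.cube_le (brIn_mm_left fun a1 x hx y hy => ?_) (fun n hn => ?_) (s.br_m1_fix a0 v)
    · refine (m1_le_iff (N := (⊥ : AddSubgroup V).comap (b (L a1 x)))).2 (fun a3 => ?_) hy
      exact (m1_le_iff (N := (⊥ : AddSubgroup V).comap ((b.flip (L a3 (L a0 v))).comp (L a1)))).2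
        (fun a2 => s.b32 hW h5 a1 a2 a0 a3 a0 hv) hx
    · refine (mm_le_iff (N := (b.flip (L a0 v)).ker)).2 (fun a1 => ?_) hn
      change mm A _ ≤ (b.flip (L a0 v)).ker.comap (L a1)
      refine mm_le_iff.2 fun a2 => ?_
      change m1 A _ ≤ ((b.flip (L a0 v)).ker.comap (L a1)).comap (L a2)
      exact m1_le_iff.2 fun a3 => s.b41 hW h5 a1 a2 a3 a0 a0 hv
  change mm A (mm A (mm A (mm A W))) ≤ Z
  refine mm_le_iff.2 fun a1 => ?_
  change mm A _ ≤ Z.comap (L a1)
  refine mm_le_iff.2 fun a2 => ?_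
  change mm A _ ≤ (Z.comap (L a1)).comap (L a2)
  refine mm_le_iff.2 fun a3 => ?_
  change mm A _ ≤ ((Z.comap (L a1)).comap (L a2)).comap (L a3)
  exact mm_le_iff.2 fun a0 v hv => key a0 v hv (L_mem_mm a1 (L_mem_mm a2 (L_mem_m1 a3 _)))

/-- Degree four on `T / Z`. -/
theorem deg_four : (mm A)^[4] (⊤ : AddSubgroup V) ≤ Z := by
  refine s.down (P := fun n => (mm A)^[n] (⊤ : AddSubgroup V) ≤ Z) ⊤
    (fun n hn => hn.trans bot_le) 4 (fun n hn hP => ?_) fun n hP => ?_
  · obtain ⟨k, rfl⟩ : ∃ k, n = 4 + k := ⟨n - 4, by omega⟩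
    rw [Function.iterate_add_apply]
    refine s.step (iter_inv le_top k) ?_
    rwa [← Function.iterate_add_apply, show 5 + k = 4 + k + 1 by omega]
  · rw [iter_succ]; exact (mm_mono hP).trans s.zinv

end Setup

end CL.JTr
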