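import Cfsg.Agent.PLOC.JTr.Limit

/-!
Lynd's theorem: for `p ≥ 5` an `F`-module for a `p`-group has a quadratic offender which is
normal in its normal closure.
-/

set_option autoImplicit false

namespace CL.JLim

open Polynomial Module Subgroup
open scoped commutatorElement

variable {p : ℕ} [Fact p.Prime] {G : Type*} [Group G]

theorem card_lt_of_lt' [Finite G] {A B : Subgroup G} (h : A < B) : Nat.card A < Nat.card B :=
  lt_of_le_of_ne (card_le_of_le h.le) fun e => h.ne (eq_of_le_of_card_ge h.le e.ge)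

section Ring

variable {R : Type*} [Ring R] [Algebra (ZMod p) R] (ρ : G →* R)

/-- `A` acts quadratically. -/
def Quad (A : Subgroup G) : Prop := ∀ a ∈ A, ∀ a' ∈ A, (ρ a - 1) * (ρ a' - 1) = 0

variable (p) in
/-- The span of the elements `a - 1`. -/
def lie (A : Subgroup G) : Submodule (ZMod p) R := Submodule.span _ {x | ∃ a ∈ A, x = ρ a - 1}

variable {ρ}

theorem sub_mem_lie {A : Subgroup G} {a : G} (h : a ∈ A) : ρ a - 1 ∈ lie p ρ A :=
  Submodule.subset_span ⟨a, h, rfl⟩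

theorem lie_le_iff {A : Subgroup G} {U : Submodule (ZMod p) R} :
    lie p ρ A ≤ U ↔ ∀ a ∈ A, ρ a - 1 ∈ U :=
  ⟨fun h _ ha => h (sub_mem_lie ha), fun h => Submodule.span_le.2 (by
    rintro _ ⟨a, ha, rfl⟩; exact h a ha)⟩

theorem map_pow_of_sq {u : G} {z : R} (h : ρ u = 1 + z) (hz : z * z = 0) (n : ℕ) :
    ρ (u ^ n) = 1 + (n : ZMod p) • z := by
  induction n with
  | zero => simp
  | succ n ih =>
    rw [pow_succ, map_mul, ih, h]
    simp only [mul_add, add_mul, one_mul, mul_one, smul_mul_assoc, hz, smul_zero, Nat.cast_succ,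
      add_smul, one_smul]
    abel

theorem map_val_of_sq {u : G} {z : R} (h : ρ u = 1 + z) (hz : z * z = 0) (c : ZMod p) :
    ρ (u ^ c.val) = 1 + c • z := by
  rw [map_pow_of_sq (p := p) h hz, ZMod.natCast_zmod_val]

theorem map_inv_of {u : G} {y : R} (h : ρ u * y = 1) : ρ u⁻¹ = y := by
  rw [← mul_one (ρ u⁻¹), ← h, ← mul_assoc, ← map_mul, inv_mul_cancel, map_one, one_mul]

theorem map_inv_of_sq {u : G} {z : R} (h : ρ u = 1 + z) (hz : z * z = 0) : ρ u⁻¹ = 1 - z :=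
  map_inv_of (by rw [h]; simp [mul_sub, add_mul, hz])

theorem Quad.mono {A B : Subgroup G} (h : Quad ρ A) (hB : B ≤ A) : Quad ρ B :=
  fun a ha a' ha' => h a (hB ha) a' (hB ha')

theorem Quad.mem_lie {A : Subgroup G} (h : Quad ρ A) {x : R} (hx : x ∈ lie p ρ A) :
    ∃ a ∈ A, ρ a = 1 + x := by
  induction hx using Submodule.span_induction with
  | mem x hx => obtain ⟨a, ha, rfl⟩ := hx; exact ⟨a, ha, by abel⟩
  | zero => exact ⟨1, one_mem _, by simp⟩
  | add x y _ _ hx hy =>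
    obtain ⟨a, ha, e⟩ := hx
    obtain ⟨a', ha', e'⟩ := hy
    have := h a ha a' ha'
    rw [e, e', add_sub_cancel_left, add_sub_cancel_left] at this
    exact ⟨a * a', mul_mem ha ha', by
      rw [map_mul, e, e']; simp only [mul_add, add_mul, one_mul, mul_one, this]; abel⟩
  | smul c x _ hx =>
    obtain ⟨a, ha, e⟩ := hx
    have := h a ha a ha
    rw [e, add_sub_cancel_left] at this
    exact ⟨_, pow_mem ha _, map_val_of_sq e this c⟩

theorem Quad.mul_lie {A : Subgroup G} (h : Quad ρ A) :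
    ∀ x ∈ lie p ρ A, ∀ y ∈ lie p ρ A, x * y = 0 := fun x hx y hy => by
  obtain ⟨a, ha, e⟩ := h.mem_lie hx
  obtain ⟨a', ha', e'⟩ := h.mem_lie hy
  have := h a ha a' ha'
  rwa [e, e', add_sub_cancel_left, add_sub_cancel_left] at this

theorem card_le_card_lie [Finite R] (hρ : Function.Injective ρ) (A : Subgroup G) :
    Nat.card A ≤ Nat.card (lie p ρ A) :=
  Nat.card_le_card_of_injective (fun a => ⟨ρ a - 1, sub_mem_lie a.2⟩) fun _ _ h =>
    Subtype.ext (hρ (sub_left_injective (congrArg Subtype.val h)))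

theorem card_le_of_forall [Finite G] {U : Submodule (ZMod p) R} {B : Subgroup G}
    (h : ∀ x ∈ U, ∃ g ∈ B, ρ g = 1 + x) : Nat.card U ≤ Nat.card B := by
  choose f h1 h2 using h
  exact Nat.card_le_card_of_injective (fun x => ⟨f x x.2, h1 x x.2⟩) fun x y e =>
    Subtype.ext (add_left_cancel (a := 1) (by
      rw [← h2 x x.2, ← h2 y y.2]; exact congrArg (fun t : B => ρ t) e))

/-- The subgroup attached to a subspace of square zero. -/
def grp (ρ : G →* R) (U : Submodule (ZMod p) R) (h : ∀ x ∈ U, ∀ y ∈ U, x * y = 0) :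
    Subgroup G where
  carrier := {g | ρ g - 1 ∈ U}
  one_mem' := by simp
  mul_mem' := fun {a a'} ha ha' => by
    have e : ρ (a * a') - 1 = (ρ a - 1) + (ρ a' - 1) + (ρ a - 1) * (ρ a' - 1) := by
      rw [map_mul]; noncomm_ring
    change ρ (a * a') - 1 ∈ U
    rw [e, h _ ha _ ha', add_zero]
    exact add_mem ha ha'
  inv_mem' := fun {a} ha => by
    change ρ a⁻¹ - 1 ∈ U
    rw [map_inv_of_sq (z := ρ a - 1) (by abel) (h _ ha _ ha), sub_sub_cancel_left]
    exact neg_mem ha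

theorem four_eq_zero (A : Fin 3 → Subgroup G) (hq : ∀ s, Quad ρ (A s))
    (hn : ∀ s t, A t ≤ normalizer (A s : Set G)) :
    ∀ x ∈ ⨆ s, lie p ρ (A s), ∀ y ∈ ⨆ s, lie p ρ (A s), ∀ z ∈ ⨆ s, lie p ρ (A s),
      ∀ t ∈ ⨆ s, lie p ρ (A s), x * (y * (z * t)) = 0 := by
  let I : Finset (Fin 3) → Submodule (ZMod p) R := fun S =>
    { carrier := {z | ∀ s ∈ S, ∀ a ∈ A s, (ρ a - 1) * z = 0}
      zero_mem' := fun _ _ _ _ => mul_zero _
      add_mem' := fun hx hy s hs a ha => by rw [mul_add, hx s hs a ha, hy s hs a ha, add_zero]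
      smul_mem' := fun c _ hx s hs a ha => by rw [mul_smul_comm, hx s hs a ha, smul_zero] }
  let Y : ℕ → Submodule (ZMod p) R := fun k => ⨆ (S : Finset (Fin 3)) (_ : k ≤ S.card), I S
  have step : ∀ k, ∀ x ∈ ⨆ s, lie p ρ (A s), ∀ z ∈ Y k, x * z ∈ Y (k + 1) := fun k x hx z hz => by
    refine (iSup_le (a := (Y (k + 1)).comap (LinearMap.mulRight _ z)) fun t =>
      lie_le_iff.2 fun g hg => ?_) hx
    refine (iSup₂_le (a := (Y (k + 1)).comap (LinearMap.mulLeft _ (ρ g - 1))) fun S hS z hz => ?_) hz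
    change (ρ g - 1) * z ∈ Y (k + 1)
    by_cases ht : t ∈ S
    · rw [hz t ht g hg]; exact zero_mem _
    refine le_iSup₂ (f := fun (S : Finset (Fin 3)) (_ : k + 1 ≤ S.card) => I S) (insert t S)
      (by rw [Finset.card_insert_of_notMem ht]; omega) fun s hs a ha => ?_
    rcases Finset.mem_insert.1 hs with rfl | hs
    · rw [← mul_assoc, hq s a ha g hg, zero_mul]
    · have h1 := hz s hs _ ((mem_normalizer_iff''.1 (hn s t hg) a).1 ha)
      have h2 : (ρ a - 1) * ρ g = ρ g * (ρ (g⁻¹ * a * g) - 1) := by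
        rw [mul_sub, sub_mul, ← map_mul, ← map_mul]; simp [← mul_assoc]
      rw [sub_mul (ρ g), mul_sub, ← mul_assoc, h2, mul_assoc, h1, one_mul, hz s hs a ha]
      simp
  intro x hx y hy z hz t ht
  have h0 : (1 : R) ∈ Y 0 := le_iSup₂ (f := fun (S : Finset (Fin 3)) (_ : 0 ≤ S.card) => I S) ∅
    le_rfl fun s hs => absurd hs (Finset.notMem_empty s)
  have h4 : Y 4 ≤ ⊥ := iSup₂_le fun S hS => absurd (hS.trans S.card_le_univ) (by simp)
  simpa using h4 (step 3 x hx _ (step 2 y hy _ (step 1 z hz _ (step 0 t ht _ h0))))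

section Log

variable {a b : ZMod p} (ha : 2 * a = 1) (hb : 3 * b = 1) {W : Submodule (ZMod p) R}
  (h4 : ∀ x ∈ W, ∀ y ∈ W, ∀ z ∈ W, ∀ t ∈ W, x * (y * (z * t)) = 0)
include ha hb h4

theorem map_pow_ex {g : G} {x : R} (hx : x ∈ W) (h : ρ g = ex a b x) (n : ℕ) :
    ρ (g ^ n) = ex a b ((n : ZMod p) • x) := by
  induction n with
  | zero => simp [ex]
  | succ n ih =>
    rw [pow_succ, map_mul, ih, h, Nat.cast_succ, ← ex_smul_add ha hb h4 hx, one_smul]

theorem map_inv_ex {g : G} {x : R} (hx : x ∈ W) (h : ρ g = ex a b x) : ρ g⁻¹ = ex a b (-x) := by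
  refine map_inv_of ?_
  have := ex_smul_add ha hb h4 hx 1 (-1)
  rw [one_smul, neg_one_smul, add_neg_cancel, zero_smul] at this
  rw [h, this]; simp [ex]

theorem exists_add {N : Subgroup G} [hN : N.Normal] {g h : G} {x y : R} (hx : x ∈ W) (hy : y ∈ W)
    (h1 : ρ g = ex a b x) (h2 : ρ h = ex a b y) (k1 : g * h ∈ N) (k2 : ⁅g, h⁆ ∈ N) :
    ∃ k ∈ N, ρ k = ex a b (x + y) := by
  have e1 := ex_comm ha hb h4 hx hy
  rw [← map_inv_ex ha hb h4 hx h1, ← map_inv_ex ha hb h4 hy h2, ← h1, ← h2, ← map_mul, ← map_mul,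
    ← map_mul, ← commutatorElement_def] at e1
  obtain ⟨z1, z2, e2⟩ := ex_comm2 ha hb h4 hx hy hx
  obtain ⟨-, z3, e3⟩ := ex_comm2 ha hb h4 hx hy hy
  rw [← map_inv_of_sq e1 z1, ← e1, ← map_inv_ex ha hb h4 hx h1, ← h1, ← map_mul, ← map_mul,
    ← map_mul, ← commutatorElement_def] at e2
  rw [← map_inv_of_sq e1 z1, ← e1, ← map_inv_ex ha hb h4 hy h2, ← h2, ← map_mul, ← map_mul,
    ← map_mul, ← commutatorElement_def] at e3
  have e4 := ex_add ha hb h4 hx hy
  dsimp only at e4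
  rw [← map_val_of_sq e1 z1, ← map_val_of_sq e2 z2, ← map_val_of_sq e3 z3, ← h1, ← h2, ← map_mul,
    ← map_mul, ← map_mul, ← map_mul] at e4
  have c : ∀ t : G, ⁅t, ⁅g, h⁆⁆ ∈ N := fun t => mul_mem (hN.conj_mem _ k2 t) (inv_mem k2)
  exact ⟨_, mul_mem (mul_mem (mul_mem k1 (pow_mem k2 _)) (pow_mem (c g) _)) (pow_mem (c h) _), e4⟩

variable (ρ) in
/-- The logarithms of the elements of a normal subgroup. -/
def logs (N : Subgroup G) [hN : N.Normal] : Submodule (ZMod p) R where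
  carrier := {x | x ∈ W ∧ ∃ g ∈ N, ρ g = ex a b x}
  zero_mem' := ⟨zero_mem _, 1, one_mem _, by simp [ex]⟩
  add_mem' := by
    rintro x y ⟨hx, g, hg, h1⟩ ⟨hy, h, hh, h2⟩
    exact ⟨add_mem hx hy, exists_add ha hb h4 hx hy h1 h2 (mul_mem hg hh)
      (mul_mem (hN.conj_mem _ hh g) (inv_mem hh))⟩
  smul_mem' := by
    rintro c x ⟨hx, g, hg, h1⟩
    exact ⟨W.smul_mem c hx, _, pow_mem hg c.val, by
      rw [map_pow_ex ha hb h4 hx h1, ZMod.natCast_zmod_val]⟩

end Log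

theorem Quad.conj {A : Subgroup G} (h : Quad ρ A) (g : G) :
    Quad ρ (A.map (MulAut.conj g).toMonoidHom) := by
  rintro _ ⟨a, ha, rfl⟩ _ ⟨a', ha', rfl⟩
  have e : ∀ a, ρ ((MulAut.conj g).toMonoidHom a) - 1 = ρ g * (ρ a - 1) * ρ g⁻¹ := fun a => by
    simp [mul_sub, sub_mul, ← map_mul]
  rw [e, e, mul_assoc, mul_assoc, ← mul_assoc (ρ g⁻¹), ← mul_assoc (ρ g⁻¹), ← map_mul,
    inv_mul_cancel, map_one, one_mul, ← mul_assoc (ρ a - 1), h a ha a' ha']
  simp

theorem card_le_of_finrank {V V' : Type*} [AddCommGroup V] [Module (ZMod p) V] [Finite V]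
    [AddCommGroup V'] [Module (ZMod p) V'] [Finite V']
    (h : finrank (ZMod p) V ≤ finrank (ZMod p) V') : Nat.card V ≤ Nat.card V' := by
  rw [Module.natCard_eq_pow_finrank (K := ZMod p) (V := V),
    Module.natCard_eq_pow_finrank (K := ZMod p) (V := V')]
  exact Nat.pow_le_pow_right (Nat.card_pos (α := ZMod p)) h

theorem replace [Finite G] [Finite R] (hp : 5 ≤ p) (hρ : Function.Injective ρ) {A : Subgroup G}
    (hA : Quad ρ A) {c : G} {β : R} (hc : ρ c = 1 + β) (hβ : β * β = 0)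
    (hn : ∀ s : ℤ, ∀ a ∈ A, c ^ s * a * (c ^ s)⁻¹ ∈ normalizer (A : Set G))
    (hcA : c ∉ normalizer (A : Set G)) (γ : ℕ → Subgroup G) [∀ i, (γ i).Normal] (h0 : γ 0 = ⊤)
    (hγ : ∀ i, ⁅γ i, ⊤⁆ ≤ γ (i + 1)) {n : ℕ} (hn0 : γ n = ⊥) :
    ∃ h, (∀ i, Nat.card (A ⊓ γ i : Subgroup G) ≤ Nat.card (grp ρ (lim (1 + X * C β) (1 - X * C β)
      (lie p ρ A)) h ⊓ γ i : Subgroup G)) ∧ ∃ i ≤ n, Nat.card (A ⊓ γ i : Subgroup G) <
        Nat.card (grp ρ (lim (1 + X * C β) (1 - X * C β) (lie p ρ A)) h ⊓ γ i : Subgroup G) := by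
  have hU := lim_mul (mul_conj hβ) (hA.mul_lie (p := p)) (P := 1 + X * C β) (Q' := 1 - X * C β)
  have u : ∀ k : ℕ, 0 < k → k < 5 → ∃ a : ZMod p, k * a = 1 := fun k k1 k2 =>
    ⟨(k : ZMod p)⁻¹, mul_inv_cancel₀ fun e => by
      have := Nat.le_of_dvd k1 ((ZMod.natCast_eq_zero_iff k p).1 e); omega⟩
  obtain ⟨a, ha⟩ := u 2 (by omega) (by omega)
  obtain ⟨b, hb⟩ := u 3 (by omega) (by omega)
  rw [Nat.cast_ofNat] at ha hb
  let ε : Fin 3 → ℤ := ![0, 1, -1]
  let B : Fin 3 → Subgroup G := fun s => A.map (MulAut.conj (c ^ ε s)).toMonoidHom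
  have h4 := four_eq_zero (p := p) B (fun s => hA.conj _) fun s t => by
    rintro _ ⟨x, hx, rfl⟩
    refine map_le_map_iff_of_injective (f := (MulAut.conj (c ^ ε s)).toMonoidHom)
      (MulAut.conj _).injective |>.2 le_rfl |>.trans (le_normalizer_map _) ⟨_, hn (ε t - ε s) x hx, ?_⟩
    simp only [MulEquiv.toMonoidHom_eq_coe, MonoidHom.coe_coe, MulAut.conj_apply]
    group
  have hc' := map_inv_of_sq hc hβ
  have key : ∀ (N N' : Subgroup G) [N.Normal] [N'.Normal], ⁅N, ⊤⁆ ≤ N' → ∀ x ∈ lie p ρ (A ⊓ N),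
      x ∈ logs ρ ha hb h4 N ∧ β * x - x * β ∈ logs ρ ha hb h4 N' ∧
        β * x * β ∈ logs ρ ha hb h4 N' := by
    intro N N' _ _ hN x hx
    obtain ⟨g, hg, e⟩ := (hA.mono inf_le_left).mem_lie hx
    have m : ∀ s, ρ (c ^ ε s * g * (c ^ ε s)⁻¹) - 1 ∈ ⨆ s, lie p ρ (B s) ∧
        ρ (c ^ ε s * g * (c ^ ε s)⁻¹) = ex a b (ρ (c ^ ε s * g * (c ^ ε s)⁻¹) - 1) := fun s =>
      ⟨le_iSup (fun s => lie p ρ (B s)) s (sub_mem_lie ⟨g, hg.1, rfl⟩), by
        rw [ex_of_sq (x := ρ (c ^ ε s * g * (c ^ ε s)⁻¹) - 1)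
          (hA.conj (c ^ ε s) _ ⟨g, hg.1, rfl⟩ _ ⟨g, hg.1, rfl⟩)]; abel⟩
    obtain ⟨m0, m0'⟩ := m 0
    simp only [ε, Matrix.cons_val_zero, zpow_zero, one_mul, inv_one, mul_one, e,
      add_sub_cancel_left] at m0 m0'
    rw [← e] at m0'
    have d : ∀ s, ρ (c ^ ε s * g * (c ^ ε s)⁻¹) - 1 + -x ∈ logs ρ ha hb h4 N' := fun s =>
      ⟨add_mem (m s).1 (neg_mem m0), exists_add ha hb h4 (m s).1 (neg_mem m0) (m s).2
        (map_inv_ex ha hb h4 m0 m0') (by
          rw [← commutatorElement_def, ← commutatorElement_inv]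
          exact inv_mem (hN (commutator_mem_commutator hg.2 (mem_top _))))
        (hN (commutator_mem_commutator (Normal.conj_mem inferInstance _ hg.2 _) (mem_top _)))⟩
    have d1 := d 1
    have d2 := d 2
    simp only [ε, Matrix.cons_val_one, Matrix.cons_val_zero, Matrix.cons_val, zpow_one,
      zpow_neg, inv_inv, map_mul, hc, hc', e] at d1 d2
    refine ⟨⟨m0, g, hg.2, m0'⟩, ?_, ?_⟩
    · convert Submodule.smul_mem _ a (sub_mem d1 d2) using 1
      simp only [mul_add, add_mul, mul_sub, sub_mul, one_mul, mul_one, hβ]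
      match_scalars <;> grind
    · convert Submodule.smul_mem _ (-a) (add_mem d1 d2) using 1
      simp only [mul_add, add_mul, mul_sub, sub_mul, one_mul, mul_one, hβ]
      match_scalars <;> grind
  have lg : ∀ (N : Subgroup G) [N.Normal], ∀ x ∈ logs ρ ha hb h4 N, x * x = 0 →
      ∃ g ∈ N, ρ g = 1 + x := fun N _ x hx hxx => by
    obtain ⟨-, g, hg, e⟩ := hx
    exact ⟨g, hg, by rw [e, ex_of_sq hxx]⟩
  have mg : ∀ (N : Subgroup G) [N.Normal], ∀ x ∈ logs ρ ha hb h4 N,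
      x ∈ lim (1 + X * C β) (1 - X * C β) (lie p ρ A) → ∃ g ∈ grp ρ _ hU ⊓ N, ρ g = 1 + x :=
    fun N _ x hx hx' => by
      obtain ⟨g, hg, e⟩ := lg N x hx (hU x hx' x hx')
      exact ⟨g, ⟨show ρ g - 1 ∈ lim _ _ _ by rwa [e, add_sub_cancel_left], hg⟩, e⟩
  have mono : ∀ N : Subgroup G, lie p ρ (A ⊓ N) ≤ lie p ρ A := fun N =>
    lie_le_iff.2 fun g hg => sub_mem_lie hg.1
  refine ⟨hU, fun i => ?_, ?_⟩
  · have k1 := finrank_le_lim (P := 1 + X * C β) (Q := 1 - X * C β) (P' := 1 - X * C β)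
      (Q' := 1 + X * C β) natDegree_add_le_one natDegree_sub_le_one (mul_conj hβ)
      (mul_conj hβ) (lie p ρ (A ⊓ γ i))
    exact (card_le_card_lie (p := p) hρ _).trans ((card_le_of_finrank k1).trans
      (card_le_of_forall fun x hx => mg (γ i) x
        (lim_le (key (γ i) (γ i) (commutator_le_left _ _)) hx) (lim_mono _ _ (mono _) hx)))
  let Bad : ℕ → Prop := fun i => ¬ ∀ x ∈ lie p ρ (A ⊓ γ i),
    β * x - x * β ∈ lie p ρ A ∧ β * x * β ∈ lie p ρ A
  have b0 : Bad 0 := fun h => hcA (mem_normalizer_fintype fun g hg => by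
    obtain ⟨k1, k2⟩ := h _ (sub_mem_lie (by rw [h0, inf_top_eq]; exact hg))
    obtain ⟨g', hg', e⟩ := hA.mem_lie (sub_mem (add_mem (sub_mem_lie hg) k1) k2)
    rwa [hρ (show ρ (c * g * c⁻¹) = ρ g' by
      rw [e, map_mul, map_mul, hc, hc']
      simp only [mul_add, add_mul, mul_sub, sub_mul, one_mul, mul_one, hβ]
      abel)])
  have bn : ¬ Bad n := fun h => h fun x hx => by
    have : x = 0 := (lie_le_iff (U := ⊥)).2 (fun g hg => by
      rw [hn0, inf_bot_eq, mem_bot] at hg; simp [hg]) hx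
    simp [this]
  obtain ⟨i, hi, b1, b2⟩ : ∃ i < n, Bad i ∧ ¬ Bad (i + 1) := by
    by_contra hcon
    refine bn (Nat.le_induction (P := fun m _ => m ≤ n → Bad m) (fun _ => b0)
      (fun m _ ih hm => ?_) n (Nat.zero_le n) le_rfl)
    exact fun h => hcon ⟨m, hm, ih (by omega), fun k => k h⟩
  refine ⟨i + 1, hi, card_lt_of_lt' ?_⟩
  simp only [Bad, not_not] at b2
  refine lt_of_le_of_ne (fun g hg => ⟨const_mem_lim hβ (sub_mem_lie hg.1)
    (b2 _ (sub_mem_lie hg)).1 (b2 _ (sub_mem_lie hg)).2, hg.2⟩) fun e => b1 fun x hx => ?_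
  obtain ⟨-, k1, k2⟩ := key _ _ (hγ i) x hx
  have fin : ∀ y ∈ logs ρ ha hb h4 (γ (i + 1)),
      y ∈ lim (1 + X * C β) (1 - X * C β) (lie p ρ A) → y ∈ lie p ρ A := fun y h1 h2 => by
    obtain ⟨g, hg, e'⟩ := mg _ y h1 h2
    rw [← e] at hg
    simpa [e'] using sub_mem_lie (p := p) (ρ := ρ) hg.1
  have k3 := fin _ k2 (quad_mem_lim (mono _ hx))
  exact ⟨fin _ k1 (lin_mem_lim hβ (mono _ hx) k3), k3⟩

end Ring

section Mod

variable {M : Type*} [AddCommGroup M] [Module (ZMod p) M] {ρ : G →* Module.End (ZMod p) M}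

variable (ρ) in
/-- The fixed vectors of a subgroup. -/
def fixS (A : Subgroup G) : Submodule (ZMod p) M where
  carrier := {v | ∀ a ∈ A, ρ a v = v}
  zero_mem' := fun _ _ => map_zero _
  add_mem' := fun hx hy a ha => by rw [map_add, hx a ha, hy a ha]
  smul_mem' := fun c _ hx a ha => by rw [map_smul, hx a ha]

theorem card_fixS_conj [Finite M] (A : Subgroup G) (g : G) :
    Nat.card (fixS ρ A) ≤ Nat.card (fixS ρ (A.map (MulAut.conj g).toMonoidHom)) := by
  refine Nat.card_le_card_of_injective (fun v => ⟨ρ g v, ?_⟩) fun v w h => Subtype.ext ?_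
  · rintro _ ⟨a, ha, rfl⟩
    change (ρ (g * a * g⁻¹) * ρ g) v = ρ g v
    rw [← map_mul, inv_mul_cancel_right, map_mul, Module.End.mul_apply, v.2 a ha]
  · have := congrArg (fun t => ρ g⁻¹ t.1) h
    simpa only [← Module.End.mul_apply, ← map_mul, inv_mul_cancel, map_one,
      Module.End.one_apply] using this

theorem card_fixS_le [Finite M] {A : Subgroup G} {β : Module.End (ZMod p) M} (hβ : β * β = 0)
    (h : ∀ x ∈ lim (1 + X * C β) (1 - X * C β) (lie p ρ A),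
      ∀ y ∈ lim (1 + X * C β) (1 - X * C β) (lie p ρ A), x * y = 0) :
    Nat.card (fixS ρ A) ≤ Nat.card (fixS ρ (grp ρ _ h)) := by
  rcases subsingleton_or_nontrivial M with hM | hM
  · exact Nat.card_le_card_of_injective (fun _ => 0) fun _ _ _ => Subsingleton.elim _ _
  obtain ⟨m, hm⟩ := exists_ne (0 : M)
  obtain ⟨f, hf⟩ := Module.Projective.exists_dual_ne_zero (ZMod p) hm
  let ι : M →ₗ[ZMod p] Module.End (ZMod p) M := LinearMap.smulRightₗ f
  have hι : Function.Injective ι := fun v w e => smul_right_injective M hf (LinearMap.congr_fun e m)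
  have mul : ∀ (x : Module.End (ZMod p) M) v, x * ι v = ι (x v) := fun x v =>
    LinearMap.ext fun w => by simp [ι]
  have k1 := finrank_le_lim (P := 1 + X * C β) (Q := 1) (P' := 1 - X * C β) (Q' := 1)
    natDegree_add_le_one (by simp) (mul_conj hβ) (mul_one _) ((fixS ρ A).map ι)
  have k2 := lim_mul (P := 1 + X * C β) (Q' := 1) (mul_conj hβ) (U := lie p ρ A)
    (U' := (fixS ρ A).map ι) (by
      rintro x hx _ ⟨v, hv, rfl⟩
      refine (lie_le_iff (U := LinearMap.ker (LinearMap.mulRight _ (ι v)))).2 (fun a ha => ?_) hx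
      change (ρ a - 1) * ι v = 0
      rw [mul, LinearMap.sub_apply, hv a ha, Module.End.one_apply, sub_self, map_zero])
  have k3 : lim (1 + X * C β) 1 ((fixS ρ A).map ι) ≤ (fixS ρ (grp ρ _ h)).map ι := fun y hy => by
    have : y ∈ LinearMap.range ι := by
      obtain ⟨g, hg, n, -, rfl⟩ := hy
      rw [mul_one, add_mul, one_mul, mul_assoc, coeff_add]
      refine add_mem (LinearMap.map_le_range (hg n)) (coeff_X_mul_mem (fun j => ?_) n)
      obtain ⟨v, -, e⟩ := hg j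
      rw [coeff_C_mul, ← e, mul]
      exact ⟨_, rfl⟩
    obtain ⟨v, rfl⟩ := this
    refine ⟨v, fun a ha => ?_, rfl⟩
    have := k2 _ ha _ hy
    rwa [mul, ← map_zero ι, hι.eq_iff, LinearMap.sub_apply, sub_eq_zero] at this
  have k4 := k1.trans (Submodule.finrank_mono k3)
  rw [← (Submodule.equivMapOfInjective ι hι _).finrank_eq,
    ← (Submodule.equivMapOfInjective ι hι _).finrank_eq] at k4
  exact card_le_of_finrank k4

theorem exists_normal_lt [Finite G] [Group.IsNilpotent G] {A P : Subgroup G} (h : A < P) :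
    ∃ K : Subgroup G, A ≤ K ∧ K < P ∧ P ≤ normalizer (K : Set G) := by
  obtain ⟨K, hK, hle⟩ := (eq_top_or_exists_le_coatom (A.subgroupOf P)).resolve_left fun e =>
    h.not_ge (subgroupOf_eq_top.1 e)
  have := NormalizerCondition.normal_of_coatom K Group.normalizerCondition_of_isNilpotent hK
  refine ⟨K.map P.subtype, by rw [← map_subgroupOf_eq_of_le h.le]; exact map_mono hle,
    lt_of_le_of_ne (map_subtype_le K) fun e => hK.1 (eq_top_iff.2 fun x _ => ?_), fun g hg => ?_⟩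
  · obtain ⟨y, hy, e'⟩ := e.ge x.2
    rwa [← Subtype.ext e']
  · exact le_normalizer_map _ ⟨⟨g, hg⟩, by rw [normalizer_eq_top]; trivial, rfl⟩

theorem exists_mutual [Finite G] [Finite M] (hp : 5 ≤ p) (hG : IsPGroup p G)
    (hρ : Function.Injective ρ) {m : ℕ} {A0 : Subgroup G} (h1 : A0 ≠ ⊥) (h2 : Quad ρ A0)
    (h3 : m ≤ Nat.card A0 * Nat.card (fixS ρ A0)) :
    ∃ A : Subgroup G, A ≠ ⊥ ∧ Quad ρ A ∧ m ≤ Nat.card A * Nat.card (fixS ρ A) ∧
      ∀ g : G, ∀ a ∈ A, g * a * g⁻¹ ∈ normalizer (A : Set G) := by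
  have hnil := hG.isNilpotent
  have : Finite (Module.End (ZMod p) M) := Finite.of_injective _ DFunLike.coe_injective
  obtain ⟨n, hn⟩ := Subgroup.nilpotent_iff_lowerCentralSeries.1 hnil
  let γ : ℕ → Subgroup G := (⊤ : Subgroup G).lowerCentralSeries
  let Φ : Subgroup G → ℕ := fun A => ∑ i ∈ Finset.range (n + 1), Nat.card (A ⊓ γ i : Subgroup G)
  let 𝒬 : Set (Subgroup G) := {A | A ≠ ⊥ ∧ Quad ρ A ∧ m ≤ Nat.card A * Nat.card (fixS ρ A)}
  obtain ⟨A1, hA1, hmax⟩ := Set.exists_max_image 𝒬 Φ (Set.toFinite _) ⟨A0, h1, h2, h3⟩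
  have cj : ∀ A ∈ 𝒬, Φ A1 ≤ Φ A → ∀ g : G, A.map (MulAut.conj g).toMonoidHom ∈ 𝒬 ∧
      Φ A1 ≤ Φ (A.map (MulAut.conj g).toMonoidHom) := fun A hA hΦ g => by
    refine ⟨⟨fun e => hA.1 ((map_eq_bot_iff_of_injective _ (MulAut.conj g).injective).1 e),
      hA.2.1.conj g, hA.2.2.trans (Nat.mul_le_mul
        (card_map_of_injective (MulAut.conj g).injective).ge (card_fixS_conj A g))⟩,
      hΦ.trans (Finset.sum_le_sum fun i _ => ?_)⟩
    rw [← card_map_of_injective (K := A ⊓ γ i) (f := (MulAut.conj g).toMonoidHom)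
      (MulAut.conj g).injective]
    refine card_le_of_le ?_
    rintro _ ⟨a, ha, rfl⟩
    exact ⟨⟨a, ha.1, rfl⟩, Normal.conj_mem inferInstance _ ha.2 g⟩
  have main : ∀ k, ∀ A ∈ 𝒬, Φ A1 ≤ Φ A → ∀ B ∈ 𝒬, Φ A1 ≤ Φ B → ∀ c ∈ B,
      Nat.card (A ⊔ zpowers c : Subgroup G) = k → c ∈ normalizer (A : Set G) := by
    intro k
    induction k using Nat.strong_induction_on with
    | _ k ih =>
    intro A hA hΦ B hB hΦ' c hc hk
    by_contra hcA
    obtain ⟨K, k1, k2, k3⟩ := exists_normal_lt (A := A) (P := A ⊔ zpowers c)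
      (left_lt_sup.2 fun e => hcA (le_normalizer (e (mem_zpowers c))))
    obtain ⟨h, l1, i, l2, l3⟩ := replace hp hρ hA.2.1 (c := c) (β := ρ c - 1) (by abel)
      (hB.2.1 c hc c hc) (fun s a ha => ih _ (hk ▸ card_lt_of_lt' (lt_of_le_of_lt (sup_le k1
        (zpowers_le.2 ((mem_normalizer_iff.1 (k3 (mem_sup_right (zpow_mem_zpowers c s))) a).1
          (k1 ha)))) k2)) A hA hΦ _ (cj A hA hΦ (c ^ s)).1 (cj A hA hΦ (c ^ s)).2 _ ⟨a, ha, rfl⟩ rfl)
      hcA γ rfl (fun i => le_rfl) hn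
    have l0 := l1 0
    simp only [γ, Subgroup.lowerCentralSeries_zero, inf_top_eq] at l0
    refine (hmax (grp ρ _ h) ⟨fun e => hA.1 (eq_bot_of_card_le _ ?_), fun a ha a' ha' => h _ ha _ ha',
      hA.2.2.trans (Nat.mul_le_mul l0 (card_fixS_le (hB.2.1 c hc c hc) h))⟩).not_gt
      (hΦ.trans_lt (Finset.sum_lt_sum (fun i _ => l1 i) ⟨i, Finset.mem_range.2 (by omega), l3⟩))
    rwa [e, card_bot] at l0
  exact ⟨A1, hA1.1, hA1.2.1, hA1.2.2, fun g a ha => main _ A1 hA1 le_rfl _ (cj A1 hA1 le_rfl g).1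
    (cj A1 hA1 le_rfl g).2 _ ⟨a, ha, rfl⟩ rfl⟩

end Mod

end CL.JLim
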